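import Mathlib
import Cfsg.Agent.Lib.ClassSizes.Basic

/-!
# Generic lemmas for class sizes: centralizers of elements, coprime factorizations, stabilizers
-/

set_option autoImplicit false

namespace Cfsg.Agent.Lib.TopClass

variable {G : Type*} [Group G]

/-- The centralizer of one element. -/
abbrev Cn (g : G) : Subgroup G := Subgroup.centralizer ({g} : Set G)

/-- The size of the class of `g`, as an index. -/
noncomputable abbrev cl (g : G) : ℕ := (Cn g).index

theorem mem_Cn {c g : G} : c ∈ Cn g ↔ c * g = g * c := Subgroup.mem_centralizer_singleton_iff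

/-- The class of `g` as a set. -/
def cls (g : G) : Set G := {h | IsConj g h}

theorem mem_cls {g h : G} : h ∈ cls g ↔ IsConj g h := Iff.rfl

theorem ncard_cls (g : G) : (cls g).ncard = cl g := by
  have h := ClassSizes.card_isConj_eq_index g
  rw [← Nat.card_coe_set_eq]
  exact h

theorem cls_eq_of_isConj {a b : G} (h : IsConj a b) : cls a = cls b := by
  ext w
  exact ⟨fun hw => h.symm.trans hw, fun hw => h.trans hw⟩

theorem cl_of_isConj {a b : G} (h : IsConj a b) : cl a = cl b := by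
  rw [← ncard_cls, ← ncard_cls, cls_eq_of_isConj h]

theorem isConj_conj (t g : G) : IsConj g (t * g * t⁻¹) := isConj_iff.mpr ⟨t, rfl⟩

theorem cl_conj (t g : G) : cl (t * g * t⁻¹) = cl g := (cl_of_isConj (isConj_conj t g)).symm

theorem isConj_inv_of {a b : G} (h : IsConj a b) : IsConj a⁻¹ b⁻¹ := by
  obtain ⟨c, rfl⟩ := isConj_iff.mp h
  exact isConj_iff.mpr ⟨c, by group⟩

theorem Cn_inv (g : G) : Cn g⁻¹ = Cn g := by
  ext c
  rw [mem_Cn, mem_Cn]
  exact Commute.inv_right_iff

theorem cl_inv (g : G) : cl g⁻¹ = cl g := by rw [cl, Cn_inv]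

theorem mem_Cn_conj {c t g : G} (h : c ∈ Cn g) : t * c * t⁻¹ ∈ Cn (t * g * t⁻¹) := by
  rw [mem_Cn] at h ⊢
  calc t * c * t⁻¹ * (t * g * t⁻¹) = t * (c * g) * t⁻¹ := by group
    _ = t * (g * c) * t⁻¹ := by rw [h]
    _ = _ := by group

theorem eq_of_le_of_index_le [Finite G] {A B : Subgroup G} (h : A ≤ B) (hi : A.index ≤ B.index) :
    A = B := by
  have h1 := A.card_mul_index
  have h2 := B.card_mul_index
  have hd : B.index ∣ A.index := Subgroup.index_dvd_of_le h
  have hA : A.index ≠ 0 := Subgroup.index_ne_zero_of_finite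
  have he : A.index = B.index := le_antisymm hi (Nat.le_of_dvd (Nat.pos_of_ne_zero hA) hd)
  have hpos : 0 < B.index := by rw [← he]; exact Nat.pos_of_ne_zero hA
  have hc : Nat.card A = Nat.card B := by
    rw [he] at h1
    exact Nat.eq_of_mul_eq_mul_right hpos (h1.trans h2.symm)
  exact Subgroup.eq_of_le_of_card_ge h hc.symm.le

theorem Cn_le_of_mem_zpowers {a g : G} (h : a ∈ Subgroup.zpowers g) : Cn g ≤ Cn a := by
  intro c hc
  rw [mem_Cn] at hc ⊢
  obtain ⟨i, rfl⟩ := Subgroup.mem_zpowers_iff.mp h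
  exact ((show Commute c g from hc).zpow_right i)

theorem cl_dvd_of_le {a g : G} (h : Cn g ≤ Cn a) : cl a ∣ cl g := Subgroup.index_dvd_of_le h

theorem cl_eq_one_iff {g : G} : cl g = 1 ↔ g ∈ Subgroup.center G := by
  rw [cl, Subgroup.index_eq_one, Subgroup.mem_center_iff]
  constructor
  · intro h c
    have : c ∈ Cn g := by rw [h]; trivial
    exact mem_Cn.mp this
  · intro h
    ext c
    simp only [Subgroup.mem_top, iff_true]
    exact mem_Cn.mpr (h c)

theorem Cn_eq_top {g : G} (h : g ∈ Subgroup.center G) : Cn g = ⊤ := by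
  have := cl_eq_one_iff.mpr h
  exact Subgroup.index_eq_one.mp this

theorem center_le_Cn (g : G) : Subgroup.center G ≤ Cn g := by
  intro z hz
  rw [mem_Cn]
  exact (Subgroup.mem_center_iff.mp hz g).symm

theorem relIndex_eq_of_coprime [Finite G] {A B : Subgroup G} (h : A.index.Coprime B.index) :
    B.relIndex A = B.index := by
  have h1 : (A ⊓ B).relIndex A * A.index = (A ⊓ B).index :=
    Subgroup.relIndex_mul_index inf_le_left
  have h2 : (A ⊓ B).relIndex B * B.index = (A ⊓ B).index :=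
    Subgroup.relIndex_mul_index inf_le_right
  rw [Subgroup.inf_relIndex_left] at h1
  have h3 : B.index ∣ B.relIndex A * A.index := by
    rw [h1, ← h2]; exact Dvd.intro_left _ rfl
  have h4 : B.index ∣ B.relIndex A := (h.symm).dvd_of_dvd_mul_right h3
  have hA : 0 < A.index := Nat.pos_of_ne_zero Subgroup.index_ne_zero_of_finite
  have h5 : (A ⊓ B).index ≤ A.index * B.index := Subgroup.index_inf_le
  have h6 : B.relIndex A ≤ B.index := by
    rw [← h1, mul_comm] at h5
    exact Nat.le_of_mul_le_mul_left h5 hA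
  have h7 : 0 < B.relIndex A := Nat.pos_of_ne_zero Subgroup.index_ne_zero_of_finite
  exact le_antisymm h6 (Nat.le_of_dvd h7 h4)

theorem exists_mul_of_coprime [Finite G] {A B : Subgroup G} (h : A.index.Coprime B.index) (g : G) :
    ∃ a ∈ A, ∃ b ∈ B, g = a * b := by
  let f : A ⧸ B.subgroupOf A → G ⧸ B :=
    Quotient.map' (fun a : A => (a : G)) (by
      intro a b hab
      rw [QuotientGroup.leftRel_apply] at hab ⊢
      simpa [Subgroup.mem_subgroupOf] using hab)
  have hf : Function.Injective f := by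
    intro p q
    refine Quotient.inductionOn₂' p q ?_
    intro a b hab
    have h1 : ((a : G) : G ⧸ B) = ((b : G) : G ⧸ B) := hab
    rw [QuotientGroup.eq] at h1
    refine Quotient.sound' ?_
    rw [QuotientGroup.leftRel_apply]
    simpa [Subgroup.mem_subgroupOf] using h1
  have hc : Nat.card (G ⧸ B) ≤ Nat.card (A ⧸ B.subgroupOf A) := by
    have h1 : Nat.card (A ⧸ B.subgroupOf A) = B.relIndex A := rfl
    have h2 : Nat.card (G ⧸ B) = B.index := rfl
    rw [h1, h2, relIndex_eq_of_coprime h]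
  have hb := hf.bijective_of_nat_card_le hc
  obtain ⟨q, hq⟩ := hb.2 (g : G ⧸ B)
  obtain ⟨a, rfl⟩ := QuotientGroup.mk_surjective q
  have h1 : ((a : G) : G ⧸ B) = (g : G ⧸ B) := hq
  rw [QuotientGroup.eq] at h1
  exact ⟨a, a.2, _, h1, by group⟩

theorem isConj_mul_of_coprime [Finite G] {u v u' v' : G} (h : (cl u).Coprime (cl v))
    (hu : IsConj u u') (hv : IsConj v v') : IsConj (u * v) (u' * v') := by
  obtain ⟨g, rfl⟩ := isConj_iff.mp hu
  obtain ⟨k, rfl⟩ := isConj_iff.mp hv
  obtain ⟨c, hc, d, hd, hcd⟩ := exists_mul_of_coprime h (g⁻¹ * k)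
  rw [mem_Cn] at hc hd
  refine isConj_iff.mpr ⟨g * c, ?_⟩
  have hk : k = g * c * d := by rw [mul_assoc, ← hcd]; group
  have h1 : g * c * u * (g * c)⁻¹ = g * u * g⁻¹ := by
    calc g * c * u * (g * c)⁻¹ = g * (c * u) * c⁻¹ * g⁻¹ := by group
      _ = g * (u * c) * c⁻¹ * g⁻¹ := by rw [hc]
      _ = _ := by group
  have h2 : k * v * k⁻¹ = g * c * v * (g * c)⁻¹ := by
    calc k * v * k⁻¹ = g * c * (d * v) * d⁻¹ * (g * c)⁻¹ := by rw [hk]; group
      _ = g * c * (v * d) * d⁻¹ * (g * c)⁻¹ := by rw [hd]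
      _ = _ := by group
  rw [h2, ← h1]
  group

/-- The left stabilizer of a set of a finite group. -/
def LStab [Finite G] (Y : Set G) : Subgroup G where
  carrier := {s | ∀ w ∈ Y, s * w ∈ Y}
  mul_mem' := by
    intro a b ha hb w hw
    rw [mul_assoc]
    exact ha _ (hb _ hw)
  one_mem' := by
    intro w hw
    simpa using hw
  inv_mem' := by
    intro s hs w hw
    have h1 : ∀ i : ℕ, s ^ i * w ∈ Y := by
      intro i
      induction i with
      | zero => simpa using hw
      | succ i ih =>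
        rw [pow_succ', mul_assoc]
        exact hs _ ih
    have h2 : s⁻¹ = s ^ (orderOf s - 1) := by
      rw [eq_comm, ← mul_eq_one_iff_eq_inv, ← pow_succ]
      have : orderOf s - 1 + 1 = orderOf s := Nat.sub_add_cancel (orderOf_pos s)
      rw [this, pow_orderOf_eq_one]
    rw [h2]
    exact h1 _

theorem mem_LStab [Finite G] {Y : Set G} {s : G} : s ∈ LStab Y ↔ ∀ w ∈ Y, s * w ∈ Y := Iff.rfl

theorem card_LStab_dvd [Finite G] (Y : Set G) : Nat.card (LStab Y) ∣ Y.ncard := by
  classical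
  letI : MulAction (LStab Y) Y :=
    { smul := fun s w => ⟨(s : G) * w, s.2 w w.2⟩
      one_smul := fun w => Subtype.ext (one_mul _)
      mul_smul := fun a b w => Subtype.ext (mul_assoc _ _ _) }
  haveI := Fintype.ofFinite (MulAction.orbitRel.Quotient (LStab Y) Y)
  rw [← Nat.card_coe_set_eq Y, Nat.card_congr (MulAction.selfEquivSigmaOrbits (LStab Y) Y),
    Nat.card_sigma]
  refine Finset.dvd_sum ?_
  intro ω _
  set w : Y := ω.out
  have h1 : Nat.card (MulAction.stabilizer (LStab Y) w) = 1 := by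
    rw [Nat.card_eq_one_iff_unique]
    refine ⟨⟨?_⟩, ⟨1⟩⟩
    rintro ⟨a, ha⟩ ⟨b, hb⟩
    have ha' : (a : G) * w = w := congrArg Subtype.val (MulAction.mem_stabilizer_iff.mp ha)
    have hb' : (b : G) * w = w := congrArg Subtype.val (MulAction.mem_stabilizer_iff.mp hb)
    apply Subtype.ext
    apply Subtype.ext
    exact mul_right_cancel (ha'.trans hb'.symm)
  have h2 := (MulAction.stabilizer (LStab Y) w).card_mul_index
  rw [h1, one_mul] at h2
  have h3 : Nat.card (MulAction.orbit (LStab Y) w) = (MulAction.stabilizer (LStab Y) w).index :=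
    Nat.card_congr (MulAction.orbitEquivQuotientStabilizer (LStab Y) w)
  rw [h3, h2]

theorem exists_parts [Finite G] (g : G) (m : ℕ) (hm : 0 < m) :
    ∃ a b : G, ∃ E : ℕ, a * b = g ∧ a ∈ Subgroup.zpowers g ∧ b ∈ Subgroup.zpowers g ∧
      a ^ (m ^ E) = 1 ∧ (orderOf b).Coprime m := by
  set o := orderOf g with ho
  have hopos : 0 < o := orderOf_pos g
  set o₁ := Nat.gcd o (m ^ o) with ho₁
  have hd1 : o₁ ∣ o := Nat.gcd_dvd_left _ _
  have hd2 : o₁ ∣ m ^ o := Nat.gcd_dvd_right _ _
  obtain ⟨o₂, ho₂⟩ := hd1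
  have hc : o₂.Coprime m := by
    refine Nat.coprime_of_dvd ?_
    intro p hp hp1 hp2
    set v := o.factorization p with hv
    have h1 : p ^ v ∣ o := Nat.ordProj_dvd o p
    have h2 : v ≤ o := (Nat.factorization_lt p hopos.ne').le
    have h3 : p ^ v ∣ m ^ o := (pow_dvd_pow p h2).trans (pow_dvd_pow_of_dvd hp2 o)
    have h4 : p ^ v ∣ o₁ := Nat.dvd_gcd h1 h3
    have h5 : p ^ (v + 1) ∣ o := by
      rw [pow_succ, ho₂]
      exact mul_dvd_mul h4 hp1
    exact Nat.pow_succ_factorization_not_dvd hopos.ne' hp h5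
  have hc2 : o₁.Coprime o₂ :=
    Nat.Coprime.coprime_dvd_left hd2 (hc.symm.pow_left o)
  have hb := Nat.gcd_eq_gcd_ab o₁ o₂
  rw [hc2] at hb
  set A := Nat.gcdA o₁ o₂
  set B := Nat.gcdB o₁ o₂
  refine ⟨g ^ ((o₂ : ℤ) * B), g ^ ((o₁ : ℤ) * A), o, ?_, Subgroup.zpow_mem_zpowers _ _,
    Subgroup.zpow_mem_zpowers _ _, ?_, ?_⟩
  · rw [← zpow_add, add_comm, ← hb]
    simp
  · obtain ⟨c, hc'⟩ := hd2
    rw [hc', pow_mul]
    have : (g ^ ((o₂ : ℤ) * B)) ^ o₁ = 1 := by
      rw [← zpow_natCast, ← zpow_mul]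
      have h1 : (o₂ : ℤ) * B * (o₁ : ℤ) = (o : ℤ) * B := by
        rw [ho₂]; push_cast; ring
      rw [h1, zpow_mul, zpow_natCast, ho, pow_orderOf_eq_one, one_zpow]
    rw [this, one_pow]
  · have : (g ^ ((o₁ : ℤ) * A)) ^ o₂ = 1 := by
      rw [← zpow_natCast, ← zpow_mul]
      have h1 : (o₁ : ℤ) * A * (o₂ : ℤ) = (o : ℤ) * A := by
        rw [ho₂]; push_cast; ring
      rw [h1, zpow_mul, zpow_natCast, ho, pow_orderOf_eq_one, one_zpow]
    exact Nat.Coprime.coprime_dvd_left (orderOf_dvd_of_pow_eq_one this) hc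

theorem mem_zpowers_mul_of_coprime [Finite G] {a b : G} (hc : Commute a b)
    (h : (orderOf a).Coprime (orderOf b)) : a ∈ Subgroup.zpowers (a * b) := by
  refine ClassSizes.mem_of_pow_mem_of_coprime _ a (orderOf b) h.symm ?_
  have h1 : (a * b) ^ orderOf b = a ^ orderOf b := by
    rw [hc.mul_pow, pow_orderOf_eq_one, mul_one]
  rw [← h1]
  exact Subgroup.npow_mem_zpowers _ _

theorem Cn_mul_of_coprime [Finite G] {a b : G} (hc : Commute a b)
    (h : (orderOf a).Coprime (orderOf b)) : Cn (a * b) = Cn a ⊓ Cn b := by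
  apply le_antisymm
  · refine le_inf (Cn_le_of_mem_zpowers (mem_zpowers_mul_of_coprime hc h)) ?_
    have : a * b = b * a := hc
    rw [this]
    exact Cn_le_of_mem_zpowers (mem_zpowers_mul_of_coprime hc.symm h.symm)
  · rintro c ⟨h1, h2⟩
    have h1' : Commute c a := mem_Cn.mp h1
    have h2' : Commute c b := mem_Cn.mp h2
    exact mem_Cn.mpr (h1'.mul_right h2')

/-- An `r`-element outside `E` inside `D` when `r` divides the relative index. -/
theorem exists_p_elt [Finite G] (D E : Subgroup G) (r : ℕ) [Fact r.Prime] (h : r ∣ E.relIndex D) :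
    ∃ c ∈ D, c ∉ E ∧ ∃ f : ℕ, c ^ (r ^ f) = 1 := by
  by_contra hcon
  push Not at hcon
  obtain ⟨P⟩ : Nonempty (Sylow r D) := inferInstance
  have h1 : (P : Subgroup D) ≤ E.subgroupOf D := by
    intro c hc
    rw [Subgroup.mem_subgroupOf]
    by_contra hce
    obtain ⟨k, hk⟩ := P.2 ⟨c, hc⟩
    refine hcon c c.2 hce k ?_
    have := congrArg (fun u : (P : Subgroup D) => ((u : D) : G)) hk
    simpa using this
  have h2 : (E.subgroupOf D).index ∣ (P : Subgroup D).index := Subgroup.index_dvd_of_le h1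
  exact P.not_dvd_index (h.trans h2)

/-- An `r`-element has a conjugate in any subgroup of index prime to `r`. -/
theorem exists_conj_mem_of_coprime_index [Finite G] (W : Subgroup G) (c : G) (r f : ℕ)
    [Fact r.Prime] (hc : c ^ (r ^ f) = 1) (hW : ¬ r ∣ W.index) : ∃ t : G, t⁻¹ * c * t ∈ W := by
  have hP : IsPGroup r (Subgroup.zpowers c) := by
    rw [IsPGroup.iff_card]
    have : orderOf c ∣ r ^ f := orderOf_dvd_of_pow_eq_one hc
    obtain ⟨k, -, hk⟩ := (Nat.dvd_prime_pow (Fact.out : r.Prime)).mp this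
    exact ⟨k, by rw [Nat.card_zpowers, hk]⟩
  have hfix := hP.nonempty_fixed_point_of_prime_not_dvd_card (G ⧸ W) hW
  obtain ⟨q, hq⟩ := hfix
  obtain ⟨t, rfl⟩ := QuotientGroup.mk_surjective q
  have h1 := hq ⟨c, Subgroup.mem_zpowers c⟩
  have h2 : ((c * t : G) : G ⧸ W) = (t : G ⧸ W) := h1
  rw [QuotientGroup.eq] at h2
  refine ⟨t, ?_⟩
  have h3 := W.inv_mem h2
  simpa [mul_assoc] using h3

/-- The quotient `D / Z` has exponent dividing `Z.relIndex D`, for `Z` central. -/
theorem pow_relIndex_mem_center [Finite G] (D : Subgroup G) {j : G} (hj : j ∈ D) :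
    j ^ ((Subgroup.center G).relIndex D) ∈ Subgroup.center G := by
  haveI : ((Subgroup.center G).subgroupOf D).Normal := by
    refine ⟨?_⟩
    intro a ha b
    rw [Subgroup.mem_subgroupOf] at ha ⊢
    have : ((b * a * b⁻¹ : D) : G) = (a : G) := by
      have h1 := Subgroup.mem_center_iff.mp ha (b : G)
      simp only [Subgroup.coe_mul, Subgroup.coe_inv]
      rw [h1]; group
    rw [this]; exact ha
  have h := Subgroup.pow_index_mem ((Subgroup.center G).subgroupOf D) (⟨j, hj⟩ : D)
  rw [Subgroup.mem_subgroupOf] at h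
  rw [Subgroup.relIndex]
  simpa using h

end Cfsg.Agent.Lib.TopClass
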