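import Mathlib
import Cfsg.Agent.Lib.TopClass.Basic

/-!
# Groups whose two largest class sizes are coprime: first reductions
-/

set_option autoImplicit false

namespace Cfsg.Agent.Lib.TopClass

variable {G : Type*} [Group G]

/-- The elements of class size prime to `m`, moved by conjugation. -/
def KS (m : ℕ) : Set G := {κ | ∃ u u' : G, (cl u).Coprime m ∧ IsConj u u' ∧ κ = u⁻¹ * u'}

/-- The subgroup generated by the `u⁻¹ u'`, `u` of class size prime to `m` and `u'` conjugate. -/
def K (m : ℕ) : Subgroup G := Subgroup.closure (KS m)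

/-- The subgroup generated by the elements of class size prime to `m`. -/
def T0 (m : ℕ) : Subgroup G := Subgroup.closure {g : G | (cl g).Coprime m}

theorem K_normal (m : ℕ) : (K m : Subgroup G).Normal := by
  refine ⟨?_⟩
  intro a ha t
  refine Subgroup.closure_induction (p := fun a _ => t * a * t⁻¹ ∈ K m) ?_ ?_ ?_ ?_ ha
  · rintro _ ⟨u, u', hu, huu, rfl⟩
    refine Subgroup.subset_closure ⟨t * u * t⁻¹, t * u' * t⁻¹, by rwa [cl_conj], ?_, by group⟩
    exact ((isConj_conj t u).symm.trans huu).trans (isConj_conj t u')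
  · simp [(K m).one_mem]
  · intro a b _ _ h1 h2
    have : t * (a * b) * t⁻¹ = (t * a * t⁻¹) * (t * b * t⁻¹) := by group
    rw [this]
    exact (K m).mul_mem h1 h2
  · intro a _ h1
    have : t * a⁻¹ * t⁻¹ = (t * a * t⁻¹)⁻¹ := by group
    rw [this]
    exact (K m).inv_mem h1

variable [Finite G]

/-- The data of the theorem: largest class size `m`, second largest `n`, coprime. -/
structure Top (m n : ℕ) (x y : G) : Prop where
  hmn : n < m
  hn : 1 < n
  hcop : m.Coprime n
  htop : ∀ z : G, cl z ≤ m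
  hsecond : ∀ z : G, cl z < m → cl z ≤ n
  hx : cl x = n
  hy : cl y = m

namespace Top

variable {m n : ℕ} {x y : G} (T : Top m n x y)
include T

theorem mpos : 0 < m := by have := T.hn; have := T.hmn; omega
theorem npos : 0 < n := by have := T.hn; omega

theorem cl_mul_eq {u w : G} (hu : (cl u).Coprime m) (hw : cl w = m) : cl (u * w) = m := by
  have hc : (cl u).Coprime (cl w) := by rw [hw]; exact hu
  have hsub : (fun w' => u * w') '' cls w ⊆ cls (u * w) := by
    rintro _ ⟨w', hw', rfl⟩
    exact isConj_mul_of_coprime hc (IsConj.refl u) hw'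
  have h1 : ((fun w' => u * w') '' cls w).ncard = m := by
    rw [Set.ncard_image_of_injective _ (mul_right_injective u), ncard_cls, hw]
  have h2 : m ≤ cl (u * w) := by
    rw [← h1, ← ncard_cls (u * w)]
    exact Set.ncard_le_ncard hsub (Set.toFinite _)
  exact le_antisymm (T.htop _) h2

theorem stab_conj {u u' w w' : G} (hu : (cl u).Coprime m) (hw : cl w = m) (hu' : IsConj u u')
    (hw' : IsConj w w') : IsConj w (u⁻¹ * u' * w') := by
  have hc : (cl u).Coprime (cl w) := by rw [hw]; exact hu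
  have hsub : (fun w' => u * w') '' cls w ⊆ cls (u * w) := by
    rintro _ ⟨w', hw', rfl⟩
    exact isConj_mul_of_coprime hc (IsConj.refl u) hw'
  have heq : (fun w' => u * w') '' cls w = cls (u * w) := by
    refine Set.eq_of_subset_of_ncard_le hsub ?_ (Set.toFinite _)
    rw [Set.ncard_image_of_injective _ (mul_right_injective u), ncard_cls, ncard_cls, hw,
      T.cl_mul_eq hu hw]
  have hm : u' * w' ∈ cls (u * w) := isConj_mul_of_coprime hc hu' hw'
  rw [← heq] at hm
  obtain ⟨w'', h1, h2⟩ := hm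
  have h3 : u⁻¹ * u' * w' = w'' := by
    rw [mul_assoc, ← h2]; group
  rw [h3]
  exact h1

theorem K_le_LStab {w : G} (hw : cl w = m) : (K m : Subgroup G) ≤ LStab (cls w) := by
  refine (Subgroup.closure_le _).mpr ?_
  rintro _ ⟨u, u', hu, huu, rfl⟩ w' hw'
  exact T.stab_conj hu hw huu hw'

theorem card_K_dvd : Nat.card (K m : Subgroup G) ∣ m := by
  have h1 := Subgroup.card_dvd_of_le (T.K_le_LStab T.hy)
  have h2 := card_LStab_dvd (cls y)
  rw [ncard_cls, T.hy] at h2
  exact h1.trans h2

theorem K_le_Cn {u : G} (hu : (cl u).Coprime m) : (K m : Subgroup G) ≤ Cn u := by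
  haveI := K_normal (G := G) m
  have h1 : (Cn u).relIndex (K m) ∣ cl u := ClassSizes.relIndex_dvd_index_of_normal_right _ _
  have h2 : (Cn u).relIndex (K m) ∣ Nat.card (K m : Subgroup G) := Subgroup.relIndex_dvd_card _ _
  have h3 : (Cn u).relIndex (K m) ∣ m := h2.trans T.card_K_dvd
  have h4 : (Cn u).relIndex (K m) = 1 := Nat.eq_one_of_dvd_coprimes hu h1 h3
  exact Subgroup.relIndex_eq_one.mp h4

theorem inv_mul_mem_K {u u' : G} (hu : (cl u).Coprime m) (h : IsConj u u') : u⁻¹ * u' ∈ (K m : Subgroup G) :=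
  Subgroup.subset_closure ⟨u, u', hu, h, rfl⟩

theorem eq_one_of_pow {κ : G} (hκ : κ ∈ (K m : Subgroup G)) {N : ℕ} (hN : N.Coprime m) (h : κ ^ N = 1) :
    κ = 1 := by
  have h1 : orderOf κ ∣ N := orderOf_dvd_of_pow_eq_one h
  have h2 : orderOf κ ∣ m := (Subgroup.orderOf_dvd_natCard _ hκ).trans T.card_K_dvd
  exact orderOf_eq_one_iff.mp (Nat.eq_one_of_dvd_coprimes hN h1 h2)

theorem central_of_coprime_order {u : G} (hu : (cl u).Coprime m) (ho : (orderOf u).Coprime m) :
    u ∈ Subgroup.center G := by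
  rw [Subgroup.mem_center_iff]
  intro t
  set κ := u⁻¹ * (t * u * t⁻¹) with hκ
  have h1 : κ ∈ (K m : Subgroup G) := T.inv_mul_mem_K hu (isConj_conj t u)
  have h2 : κ ∈ Cn u := T.K_le_Cn hu h1
  have h3 : Commute u κ := (mem_Cn.mp h2).symm
  have h4 : t * u * t⁻¹ = u * κ := by rw [hκ]; group
  have h5 : (u * κ) ^ orderOf u = 1 := by
    rw [← h4, conj_pow, pow_orderOf_eq_one]; group
  rw [h3.mul_pow, pow_orderOf_eq_one, one_mul] at h5
  have h6 : κ = 1 := T.eq_one_of_pow h1 ho h5
  rw [h6, mul_one] at h4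
  calc t * u = t * u * t⁻¹ * t := by group
    _ = u * t := by rw [h4]

/-- Key 1: a class smaller than `m` and prime to `n` is central. -/
theorem key1 {g : G} (hg : cl g < m) (hc : (cl g).Coprime n) : g ∈ Subgroup.center G := by
  have hxm : (cl x).Coprime m := by rw [T.hx]; exact T.hcop.symm
  have hxg : (cl x).Coprime (cl g) := by rw [T.hx]; exact hc.symm
  have h1 : cl (x * g) < m := by
    refine lt_of_le_of_ne (T.htop _) ?_
    intro h
    have h2 := T.cl_mul_eq (u := x⁻¹) (w := x * g) (by rw [cl_inv]; exact hxm) h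
    rw [inv_mul_cancel_left] at h2
    omega
  have h2 := T.hsecond _ h1
  have hset : ∀ g', IsConj g g' → (fun x' => x' * g') '' cls x = cls (x * g) := by
    intro g' hg'
    refine Set.eq_of_subset_of_ncard_le ?_ ?_ (Set.toFinite _)
    · rintro _ ⟨x', hx', rfl⟩
      exact isConj_mul_of_coprime hxg hx' hg'
    · rw [Set.ncard_image_of_injective _ (mul_left_injective g'), ncard_cls, ncard_cls, T.hx]
      exact h2
  rw [Subgroup.mem_center_iff]
  intro t
  set g' := t * g * t⁻¹ with hg'
  set r := g' * g⁻¹ with hr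
  have hg'c : IsConj g g' := isConj_conj t g
  have hr1 : ∀ x' ∈ cls x, x' * r ∈ cls x := by
    intro x' hx'
    have h3 : x' * g' ∈ cls (x * g) := by
      rw [← hset g' hg'c]
      exact ⟨x', hx', rfl⟩
    rw [← hset g (IsConj.refl g)] at h3
    obtain ⟨x'', h4, h5⟩ := h3
    have h6 : x' * r = x'' := by
      rw [hr, ← mul_assoc, ← h5]; group
    rw [h6]
    exact h4
  have hrK : r ∈ (K m : Subgroup G) := by
    have h3 := T.inv_mul_mem_K hxm (hr1 x (IsConj.refl x))
    rwa [inv_mul_cancel_left] at h3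
  have hrL : r⁻¹ ∈ LStab (cls x⁻¹) := by
    intro w hw
    have h3 : w⁻¹ ∈ cls x := by
      have : IsConj x⁻¹ w := hw
      have h4 := isConj_inv_of this
      rwa [inv_inv] at h4
    have h4 := hr1 _ h3
    have h5 : IsConj x (w⁻¹ * r) := h4
    have h6 : IsConj x⁻¹ (w⁻¹ * r)⁻¹ := isConj_inv_of h5
    have h7 : (w⁻¹ * r)⁻¹ = r⁻¹ * w := by group
    rw [h7] at h6
    exact h6
  have h3 : orderOf r ∣ m := (Subgroup.orderOf_dvd_natCard _ hrK).trans T.card_K_dvd
  have h4 : orderOf r⁻¹ ∣ n := by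
    have h5 := card_LStab_dvd (cls x⁻¹)
    rw [ncard_cls, cl_inv, T.hx] at h5
    exact (Subgroup.orderOf_dvd_natCard _ hrL).trans h5
  rw [orderOf_inv] at h4
  have h5 : r = 1 := orderOf_eq_one_iff.mp (Nat.eq_one_of_dvd_coprimes T.hcop h3 h4)
  have h6 : g' = g := by
    rw [hr, mul_inv_eq_one] at h5
    exact h5
  calc t * g = t * g * t⁻¹ * t := by group
    _ = g * t := by rw [← hg', h6]

theorem T0_le_LStab : (T0 m : Subgroup G) ≤ LStab {w : G | cl w = m} := by
  refine (Subgroup.closure_le _).mpr ?_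
  intro u hu w hw
  exact T.cl_mul_eq hu hw

theorem not_M_of_mem_T0 {t : G} (ht : t ∈ (T0 m : Subgroup G)) : cl t ≠ m := by
  intro h
  have h1 := T.T0_le_LStab ((T0 m).inv_mem ht) t h
  rw [inv_mul_cancel] at h1
  have h2 : cl (1 : G) = 1 := cl_eq_one_iff.mpr (Subgroup.one_mem _)
  have h3 : cl (1 : G) = m := h1
  have := T.hn
  have := T.hmn
  omega

theorem le_Cn_of_coprime_order {v t : G} (hv : cl v = m) (ht : t ∈ Cn v)
    (hc : (orderOf t).Coprime (orderOf v)) : Cn v ≤ Cn t := by
  have h1 : Commute t v := mem_Cn.mp ht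
  have h2 := Cn_mul_of_coprime h1 hc
  have h3 : (Cn v ⊓ Cn t) = Cn v := by
    refine eq_of_le_of_index_le inf_le_left ?_
    rw [inf_comm, ← h2]
    have h4 : cl (t * v) ≤ cl v := by rw [hv]; exact T.htop _
    exact h4
  exact inf_eq_left.mp h3

theorem exists_v {g : G} (hg : cl g = m) :
    ∃ v : G, Cn v = Cn g ∧ (orderOf v).Coprime m ∧ v ∉ Subgroup.center G := by
  obtain ⟨a, b, E, hab, ha, hb, haE, hbo⟩ := exists_parts g m T.mpos
  by_cases hbz : b ∈ Subgroup.center G
  · have hCa : Cn a = Cn g := by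
      refine le_antisymm ?_ (Cn_le_of_mem_zpowers ha)
      intro c hc
      rw [mem_Cn] at hc ⊢
      have h1 : c * b = b * c := (Subgroup.mem_center_iff.mp hbz c)
      rw [← hab]
      calc c * (a * b) = c * a * b := by group
        _ = a * c * b := by rw [hc]
        _ = a * (c * b) := by group
        _ = a * (b * c) := by rw [h1]
        _ = _ := by group
    have hn1 : n ≠ 1 := by have := T.hn; omega
    obtain ⟨q, hq, hqn⟩ := Nat.exists_prime_and_dvd hn1
    haveI : Fact q.Prime := ⟨hq⟩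
    have hcop2 : (Cn g).index.Coprime (Cn x).index := by
      show (cl g).Coprime (cl x)
      rw [hg, T.hx]; exact T.hcop
    have h1 : (Cn x).relIndex (Cn g) = n := (relIndex_eq_of_coprime hcop2).trans T.hx
    obtain ⟨u, hu, hux, f, huf⟩ := exists_p_elt (Cn g) (Cn x) q (by rw [h1]; exact hqn)
    have hqm : q.Coprime m :=
      (Nat.Prime.coprime_iff_not_dvd hq).mpr
        (fun h => hq.one_lt.ne' (Nat.eq_one_of_dvd_coprimes T.hcop h hqn))
    have huo : (orderOf u).Coprime m :=
      Nat.Coprime.coprime_dvd_left (orderOf_dvd_of_pow_eq_one huf) (hqm.pow_left f)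
    have hau : (orderOf u).Coprime (orderOf a) :=
      Nat.Coprime.coprime_dvd_right (orderOf_dvd_of_pow_eq_one haE) (huo.pow_right E)
    have h2 : Cn g ≤ Cn u := by
      have ha' : cl a = m := by rw [cl, hCa]; exact hg
      rw [← hCa]
      refine T.le_Cn_of_coprime_order ha' ?_ hau
      rw [hCa]; exact hu
    have h3 : cl u ∣ m := by rw [← hg]; exact cl_dvd_of_le h2
    have huz : u ∉ Subgroup.center G := fun h => hux (center_le_Cn x h)
    have h4 : cl u = m := by
      by_contra hne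
      exact huz (T.key1 (lt_of_le_of_ne (T.htop u) hne)
        (Nat.Coprime.coprime_dvd_left h3 T.hcop))
    refine ⟨u, ?_, huo, huz⟩
    refine (eq_of_le_of_index_le h2 ?_).symm
    show cl g ≤ cl u
    rw [hg, h4]
  · have h1 : Cn g ≤ Cn b := Cn_le_of_mem_zpowers hb
    have h2 : cl b ∣ m := by rw [← hg]; exact cl_dvd_of_le h1
    have h4 : cl b = m := by
      by_contra hne
      exact hbz (T.key1 (lt_of_le_of_ne (T.htop b) hne)
        (Nat.Coprime.coprime_dvd_left h2 T.hcop))
    refine ⟨b, ?_, hbo, hbz⟩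
    refine (eq_of_le_of_index_le h1 ?_).symm
    show cl g ≤ cl b
    rw [hg, h4]

/-- An element of `π(m)`-order in a maximal centralizer is central or of class size `m`. -/
theorem central_or_M {g t : G} {E : ℕ} (hg : cl g = m) (ht : t ∈ Cn g) (hE : t ^ (m ^ E) = 1) :
    t ∈ Subgroup.center G ∨ cl t = m := by
  obtain ⟨v, hv, hvo, -⟩ := T.exists_v hg
  have hvm : cl v = m := by rw [cl, hv]; exact hg
  have hc : (orderOf t).Coprime (orderOf v) :=
    Nat.Coprime.coprime_dvd_left (orderOf_dvd_of_pow_eq_one hE) (hvo.symm.pow_left E)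
  have h1 : Cn v ≤ Cn t := T.le_Cn_of_coprime_order hvm (by rw [hv]; exact ht) hc
  have h2 : cl t ∣ m := by rw [← hvm]; exact cl_dvd_of_le h1
  by_cases h3 : cl t = m
  · exact Or.inr h3
  · exact Or.inl (T.key1 (lt_of_le_of_ne (T.htop t) h3) (Nat.Coprime.coprime_dvd_left h2 T.hcop))

theorem exists_pi_part {u : G} (hu : (cl u).Coprime m) :
    ∃ a b : G, ∃ E : ℕ, a * b = u ∧ b ∈ Subgroup.center G ∧ a ^ (m ^ E) = 1 ∧ Cn a = Cn u ∧
      a ∈ Subgroup.zpowers u := by
  obtain ⟨a, b, E, hab, ha, hb, haE, hbo⟩ := exists_parts u m T.mpos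
  have h1 : cl b ∣ cl u := cl_dvd_of_le (Cn_le_of_mem_zpowers hb)
  have hbz : b ∈ Subgroup.center G :=
    T.central_of_coprime_order (Nat.Coprime.coprime_dvd_left h1 hu) hbo
  refine ⟨a, b, E, hab, hbz, haE, ?_, ha⟩
  refine le_antisymm ?_ (Cn_le_of_mem_zpowers ha)
  intro c hc
  rw [mem_Cn] at hc ⊢
  have h2 : c * b = b * c := (Subgroup.mem_center_iff.mp hbz c)
  rw [← hab]
  calc c * (a * b) = c * a * b := by group
    _ = a * c * b := by rw [hc]
    _ = a * (c * b) := by group
    _ = a * (b * c) := by rw [h2]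
    _ = _ := by group

theorem n_ne_m : n ≠ m := by have := T.hmn; omega

theorem not_M_of_mem {x' g : G} (hx' : cl x' = n) (hg : cl g = m) : g ∉ Cn x' := by
  intro hgx
  have hu : (cl x').Coprime m := by rw [hx']; exact T.hcop.symm
  obtain ⟨a, b, E, hab, hbz, haE, hCa, -⟩ := T.exists_pi_part hu
  have ha : a ∈ Cn g := by
    rw [← hCa] at hgx
    exact mem_Cn.mpr (mem_Cn.mp hgx).symm
  have hcla : cl a = n := by rw [cl, hCa]; exact hx'
  rcases T.central_or_M hg ha haE with h | h
  · have := cl_eq_one_iff.mpr h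
    have := T.hn
    omega
  · exact T.n_ne_m (hcla.symm.trans h)

/-- Elements of a centralizer of class-size `n` with order prime to `m` are central. -/
theorem central_of_mem_Cn {x' t : G} (hx' : cl x' = n) (ht : t ∈ Cn x')
    (ho : (orderOf t).Coprime m) : t ∈ Subgroup.center G := by
  have hu : (cl x').Coprime m := by rw [hx']; exact T.hcop.symm
  obtain ⟨a, b, E, hab, hbz, haE, hCa, -⟩ := T.exists_pi_part hu
  have hcla : cl a = n := by rw [cl, hCa]; exact hx'
  have ht' : t ∈ Cn a := by rw [hCa]; exact ht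
  have hc : (orderOf a).Coprime (orderOf t) :=
    Nat.Coprime.coprime_dvd_left (orderOf_dvd_of_pow_eq_one haE) (ho.symm.pow_left E)
  have hcomm : Commute a t := (mem_Cn.mp ht').symm
  have h2 := Cn_mul_of_coprime hcomm hc
  have hd : n ∣ cl (a * t) := by
    rw [cl, h2, ← hcla]
    exact Subgroup.index_dvd_of_le inf_le_left
  have h3 : cl (a * t) ≠ m := by
    intro h
    rw [h] at hd
    have := Nat.eq_one_of_dvd_coprimes T.hcop hd (dvd_refl n)
    have := T.hn
    have := T.hmn
    omega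
  have h4 : cl (a * t) ≤ n := T.hsecond _ (lt_of_le_of_ne (T.htop _) h3)
  have h5 : Cn a ⊓ Cn t = Cn a := by
    refine eq_of_le_of_index_le inf_le_left ?_
    rw [← h2]
    show cl (a * t) ≤ cl a
    rw [hcla]
    exact h4
  have h6 : Cn a ≤ Cn t := inf_eq_left.mp h5
  have h7 : cl t ∣ n := by rw [← hcla]; exact cl_dvd_of_le h6
  exact T.central_of_coprime_order (Nat.Coprime.coprime_dvd_left h7 T.hcop.symm) ho

theorem inf_eq_center {x' g : G} (hx' : cl x' = n) (hg : cl g = m) :
    Cn x' ⊓ Cn g = Subgroup.center G := by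
  refine le_antisymm ?_ (le_inf (center_le_Cn _) (center_le_Cn _))
  rintro h ⟨h1, h2⟩
  obtain ⟨a, b, E, hab, ha, hb, haE, hbo⟩ := exists_parts h m T.mpos
  have hbx : b ∈ Cn x' := by
    obtain ⟨i, rfl⟩ := Subgroup.mem_zpowers_iff.mp hb
    exact (Cn x').zpow_mem h1 i
  have hbz := T.central_of_mem_Cn hx' hbx hbo
  have hag : a ∈ Cn g := by
    obtain ⟨i, rfl⟩ := Subgroup.mem_zpowers_iff.mp ha
    exact (Cn g).zpow_mem h2 i
  have hax : a ∈ Cn x' := by
    obtain ⟨i, rfl⟩ := Subgroup.mem_zpowers_iff.mp ha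
    exact (Cn x').zpow_mem h1 i
  rcases T.central_or_M hg hag haE with h3 | h3
  · rw [← hab]
    exact (Subgroup.center G).mul_mem h3 hbz
  · exact absurd hax (T.not_M_of_mem hx' h3)

theorem relIndex_center_M {g : G} (hg : cl g = m) : (Subgroup.center G).relIndex (Cn g) = n := by
  have hc : (Cn g).index.Coprime (Cn x).index := by
    show (cl g).Coprime (cl x)
    rw [hg, T.hx]; exact T.hcop
  have h1 := (relIndex_eq_of_coprime hc).trans T.hx
  rw [← T.inf_eq_center T.hx hg, Subgroup.inf_relIndex_right]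
  exact h1

theorem relIndex_center_N {x' : G} (hx' : cl x' = n) : (Subgroup.center G).relIndex (Cn x') = m := by
  have hc : (Cn x').index.Coprime (Cn y).index := by
    show (cl x').Coprime (cl y)
    rw [hx', T.hy]; exact T.hcop.symm
  have h1 := (relIndex_eq_of_coprime hc).trans T.hy
  rw [← T.inf_eq_center hx' T.hy, Subgroup.inf_relIndex_left]
  exact h1

theorem index_center : (Subgroup.center G).index = m * n := by
  have h1 : (Subgroup.center G).relIndex (Cn x) * (Cn x).index = (Subgroup.center G).index :=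
    Subgroup.relIndex_mul_index (center_le_Cn x)
  rw [T.relIndex_center_N T.hx] at h1
  have h2 : (Cn x).index = n := T.hx
  rw [h2] at h1
  exact h1.symm

theorem pow_n_mem_center {g j : G} (hg : cl g = m) (hj : j ∈ Cn g) : j ^ n ∈ Subgroup.center G := by
  have h := pow_relIndex_mem_center (Cn g) hj
  rwa [T.relIndex_center_M hg] at h

theorem pow_m_mem_center {x' h : G} (hx' : cl x' = n) (hh : h ∈ Cn x') : h ^ m ∈ Subgroup.center G := by
  have h1 := pow_relIndex_mem_center (Cn x') hh
  rwa [T.relIndex_center_N hx'] at h1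

end Top

end Cfsg.Agent.Lib.TopClass
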