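import Mathlib
import Cfsg.Agent.Lib.TopClass.Top

/-!
# Groups whose two largest class sizes are coprime: the action on the abelian normal subgroup
-/

set_option autoImplicit false

namespace Cfsg.Agent.Lib.TopClass

variable {G : Type*} [Group G]

/-- The norm `∏_{j<i} s^j b s^{-j}`. -/
def nu (s b : G) : ℕ → G
  | 0 => 1
  | i + 1 => nu s b i * (s ^ i * b * (s ^ i)⁻¹)

theorem nu_zero (s b : G) : nu s b 0 = 1 := rfl
theorem nu_succ (s b : G) (i : ℕ) : nu s b (i + 1) = nu s b i * (s ^ i * b * (s ^ i)⁻¹) := rfl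

theorem nu_one (s : G) (i : ℕ) : nu s 1 i = 1 := by
  induction i with
  | zero => rfl
  | succ i ih => rw [nu_succ, ih]; group

theorem nu_comm {s a : G} (h : a * s = s * a) (i : ℕ) : nu s a i = a ^ i := by
  induction i with
  | zero => simp [nu_zero]
  | succ i ih =>
    have h1 : Commute s a := (Commute.symm h)
    have h2 : s ^ i * a * (s ^ i)⁻¹ = a := by
      rw [(h1.pow_left i).eq]; group
    rw [nu_succ, ih, h2, pow_succ]

theorem nu_conj {s t b : G} (h : t * s = s * t) (i : ℕ) :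
    nu s (t * b * t⁻¹) i = t * nu s b i * t⁻¹ := by
  induction i with
  | zero => simp [nu_zero]
  | succ i ih =>
    have h1 : Commute t s := h
    have h2 : s ^ i * t = t * s ^ i := ((h1.pow_right i).eq).symm
    have h3 : s ^ i * (t * b * t⁻¹) * (s ^ i)⁻¹ = t * (s ^ i * b * (s ^ i)⁻¹) * t⁻¹ := by
      calc s ^ i * (t * b * t⁻¹) * (s ^ i)⁻¹ = (s ^ i * t) * b * (s ^ i * t)⁻¹ := by group
        _ = (t * s ^ i) * b * (t * s ^ i)⁻¹ := by rw [h2]
        _ = _ := by group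
    rw [nu_succ, nu_succ, ih, h3]
    group

theorem nu_succ' (s b : G) (i : ℕ) : nu s b (i + 1) = b * (s * nu s b i * s⁻¹) := by
  induction i with
  | zero => simp [nu_succ, nu_zero]
  | succ i ih =>
    calc nu s b (i + 1 + 1) = nu s b (i + 1) * (s ^ (i + 1) * b * (s ^ (i + 1))⁻¹) := rfl
      _ = (b * (s * nu s b i * s⁻¹)) * (s ^ (i + 1) * b * (s ^ (i + 1))⁻¹) := by rw [ih]
      _ = b * (s * (nu s b i * (s ^ i * b * (s ^ i)⁻¹)) * s⁻¹) := by rw [pow_succ']; group
      _ = b * (s * nu s b (i + 1) * s⁻¹) := by rw [nu_succ]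

section
variable {A : Subgroup G} (hA : ∀ a ∈ A, ∀ b ∈ A, a * b = b * a)
  (hN : ∀ a ∈ A, ∀ t : G, t * a * t⁻¹ ∈ A)
include hN

theorem nu_mem (s : G) {b : G} (hb : b ∈ A) (i : ℕ) : nu s b i ∈ A := by
  induction i with
  | zero => exact A.one_mem
  | succ i ih => exact A.mul_mem ih (hN _ hb _)

include hA

theorem nu_mul (s : G) {b c : G} (hb : b ∈ A) (hc : c ∈ A) (i : ℕ) :
    nu s (b * c) i = nu s b i * nu s c i := by
  induction i with
  | zero => simp [nu_zero]
  | succ i ih =>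
    rw [nu_succ, nu_succ, nu_succ, ih]
    have h1 := hA _ (nu_mem hN s hc i) _ (hN _ hb (s ^ i))
    calc nu s b i * nu s c i * (s ^ i * (b * c) * (s ^ i)⁻¹)
        = nu s b i * (nu s c i * (s ^ i * b * (s ^ i)⁻¹)) * (s ^ i * c * (s ^ i)⁻¹) := by group
      _ = nu s b i * ((s ^ i * b * (s ^ i)⁻¹) * nu s c i) * (s ^ i * c * (s ^ i)⁻¹) := by rw [h1]
      _ = _ := by group

theorem nu_inv (s : G) {b : G} (hb : b ∈ A) (i : ℕ) : nu s b⁻¹ i = (nu s b i)⁻¹ := by
  have h1 := nu_mul hA hN s (A.inv_mem hb) hb i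
  rw [inv_mul_cancel, nu_one] at h1
  exact eq_inv_of_mul_eq_one_left h1.symm

theorem nu_commute {s b : G} {N : ℕ} (hsN : s ^ N = 1) (hb : b ∈ A) :
    nu s b N * s = s * nu s b N := by
  have h1 := nu_succ' s b N
  rw [nu_succ, hsN] at h1
  simp only [one_mul, inv_one, mul_one] at h1
  have h2 := hA _ (nu_mem hN s hb N) _ hb
  rw [h2] at h1
  have h3 := mul_left_cancel h1
  calc nu s b N * s = (s * nu s b N * s⁻¹) * s := by rw [← h3]
    _ = _ := by group

/-- The norm kills commutators with `s`. -/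
theorem nu_tau {s b : G} {N : ℕ} (hsN : s ^ N = 1) (hb : b ∈ A) :
    nu s (b * s * b⁻¹ * s⁻¹) N = 1 := by
  have h1 : b * s * b⁻¹ * s⁻¹ = b * (s * b⁻¹ * s⁻¹) := by group
  have h2 := hN _ (A.inv_mem hb) s
  rw [h1, nu_mul hA hN s hb h2, nu_conj (t := s) (by rfl), nu_inv hA hN s hb]
  have h3 := nu_commute hA hN hsN hb
  have h4 : s * (nu s b N)⁻¹ * s⁻¹ = (nu s b N)⁻¹ := by
    have h5 : Commute s (nu s b N) := h3.symm
    rw [h5.inv_right.eq]; group
  rw [h4]; group

end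

theorem eq_one_of_pows {c : G} {N e : ℕ} (hc : N.Coprime e) (h1 : c ^ N = 1) (h2 : c ^ e = 1) :
    c = 1 := by
  have h3 : orderOf c ∣ N := orderOf_dvd_of_pow_eq_one h1
  have h4 : orderOf c ∣ e := orderOf_dvd_of_pow_eq_one h2
  exact orderOf_eq_one_iff.mp (Nat.eq_one_of_dvd_coprimes hc h3 h4)

theorem pow_zpow_gcdA {a : G} {N e : ℕ} (hc : N.Coprime e) (h : a ^ e = 1) :
    (a ^ N) ^ (Nat.gcdA N e) = a := by
  have h1 := Nat.gcd_eq_gcd_ab N e
  rw [hc] at h1
  have h2 : a ^ ((N : ℤ) * Nat.gcdA N e + (e : ℤ) * Nat.gcdB N e) = a := by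
    rw [← h1]; simp
  rw [zpow_add, zpow_mul a (e : ℤ), zpow_natCast a e, h, one_zpow, mul_one, zpow_mul,
    zpow_natCast] at h2
  exact h2

/-- A fibre count. -/
theorem card_le_mul_of_fibers {α β δ : Type*} [Finite α] [Finite β] [Finite δ] (f : α → β)
    (φ : α → α → δ) (P : δ → Prop) (hP : ∀ a a₁, f a₁ = f a → P (φ a a₁))
    (hφ : ∀ a a₁ a₂, f a₁ = f a → f a₂ = f a → φ a a₁ = φ a a₂ → a₁ = a₂) :
    Nat.card α ≤ Nat.card {d // P d} * Nat.card β := by
  classical
  haveI := Fintype.ofFinite β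
  rw [← Nat.card_congr (Equiv.sigmaFiberEquiv f), Nat.card_sigma]
  calc ∑ y, Nat.card {x // f x = y} ≤ ∑ _y : β, Nat.card {d // P d} := by
        refine Finset.sum_le_sum (fun y _ => ?_)
        by_cases hy : ∃ a, f a = y
        · obtain ⟨a, rfl⟩ := hy
          refine Nat.card_le_card_of_injective
            (fun a₁ : {x // f x = f a} => (⟨φ a a₁.1, hP a a₁.1 a₁.2⟩ : {d // P d})) ?_
          intro a₁ a₂ h
          apply Subtype.ext
          exact hφ a _ _ a₁.2 a₂.2 (congrArg Subtype.val h)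
        · have : IsEmpty {x // f x = y} := ⟨fun a => hy ⟨a.1, a.2⟩⟩
          rw [Nat.card_of_isEmpty]
          exact Nat.zero_le _
    _ = Nat.card {d // P d} * Nat.card β := by
        rw [Finset.sum_const, Finset.card_univ, smul_eq_mul, mul_comm,
          Nat.card_eq_fintype_card (α := β)]

/-- The subgroup generated by the class of `k`. -/
def AA (k : G) : Subgroup G := Subgroup.closure (cls k)

theorem AA_conj (k : G) {a : G} (ha : a ∈ AA k) (t : G) : t * a * t⁻¹ ∈ AA k := by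
  refine Subgroup.closure_induction (p := fun a _ => t * a * t⁻¹ ∈ AA k) ?_ ?_ ?_ ?_ ha
  · intro u hu
    exact Subgroup.subset_closure (IsConj.trans hu (isConj_conj t u))
  · simp [(AA k).one_mem]
  · intro a b _ _ h1 h2
    have : t * (a * b) * t⁻¹ = (t * a * t⁻¹) * (t * b * t⁻¹) := by group
    rw [this]
    exact (AA k).mul_mem h1 h2
  · intro a _ h1
    have : t * a⁻¹ * t⁻¹ = (t * a * t⁻¹)⁻¹ := by group
    rw [this]
    exact (AA k).inv_mem h1

variable [Finite G]

namespace Top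

variable {m n : ℕ} {x y : G} (T : Top m n x y)
include T

theorem card_Cn_M {g : G} (hg : cl g = m) :
    Nat.card (Cn g) = n * Nat.card (Subgroup.center G) := by
  have h1 : (Subgroup.center G).relIndex (Cn g) * (Cn g).index = (Subgroup.center G).index :=
    Subgroup.relIndex_mul_index (center_le_Cn g)
  rw [T.relIndex_center_M hg] at h1
  have h2 := (Cn g).card_mul_index
  have h3 := (Subgroup.center G).card_mul_index
  rw [← h1] at h3
  have h4 : 0 < (Cn g).index := Nat.pos_of_ne_zero Subgroup.index_ne_zero_of_finite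
  have h5 : Nat.card (Cn g) * (Cn g).index = (n * Nat.card (Subgroup.center G)) * (Cn g).index := by
    rw [h2, ← h3]; ring
  exact Nat.eq_of_mul_eq_mul_right h4 h5

theorem AA_comm {k : G} (hk : (cl k).Coprime m) : ∀ a ∈ AA k, ∀ b ∈ AA k, a * b = b * a := by
  have h0 : ∀ k₁ ∈ cls k, AA k ≤ Cn k₁ := by
    intro k₁ hk₁
    have hk₁' : (cl k₁).Coprime m := by rw [← cl_of_isConj hk₁]; exact hk
    refine (Subgroup.closure_le _).mpr ?_
    intro k₂ hk₂
    have h1 : IsConj k₁ k₂ := (IsConj.symm hk₁).trans hk₂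
    have h2 := T.K_le_Cn hk₁' (T.inv_mul_mem_K hk₁' h1)
    have h3 := (Cn k₁).mul_mem (mem_Cn.mpr rfl : k₁ ∈ Cn k₁) h2
    simpa using h3
  intro a ha b hb
  have h1 : AA k ≤ Cn b := by
    refine (Subgroup.closure_le _).mpr ?_
    intro k₁ hk₁
    have h2 := h0 k₁ hk₁ hb
    exact mem_Cn.mpr (mem_Cn.mp h2).symm
  exact mem_Cn.mp (h1 ha)

theorem AA_exp {k : G} {e : ℕ} (hk : (cl k).Coprime m) (he : k ^ e = 1) :
    ∀ a ∈ AA k, a ^ e = 1 := by
  intro a ha
  have hc := T.AA_comm hk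
  refine Subgroup.closure_induction (p := fun a _ => a ^ e = 1) ?_ ?_ ?_ ?_ ha
  · intro u hu
    obtain ⟨c, rfl⟩ := isConj_iff.mp hu
    rw [conj_pow, he]; group
  · simp
  · intro a b ha hb h1 h2
    have : Commute a b := hc a ha b hb
    rw [this.mul_pow, h1, h2, one_mul]
  · intro a _ h1
    rw [inv_pow, h1, inv_one]

theorem AA_le_T0 {k : G} (hk : (cl k).Coprime m) : AA k ≤ T0 m := by
  refine (Subgroup.closure_le _).mpr ?_
  intro u hu
  refine Subgroup.subset_closure ?_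
  show (cl u).Coprime m
  rw [← cl_of_isConj hu]; exact hk

/-- The main step: an element of `π(n)`-order of a maximal centralizer has no nontrivial fixed
points on `⟨k^G⟩` modulo the centre. -/
theorem core {k : G} {E E' : ℕ} (hk : cl k = n) (hkE : k ^ (m ^ E) = 1) {g s a₀ : G}
    (hg : cl g = m) (hs : s ∈ Cn g) (hsz : s ∉ Subgroup.center G) (hsE : s ^ (n ^ E') = 1)
    (ha₀ : a₀ ∈ AA k) (hc : a₀ * s = s * a₀) : a₀ ∈ Subgroup.center G := by
  classical
  by_contra ha₀z
  have hku : (cl k).Coprime m := by rw [hk]; exact T.hcop.symm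
  have hAc := T.AA_comm hku
  have hAn : ∀ a ∈ AA k, ∀ t : G, t * a * t⁻¹ ∈ AA k := fun a ha t => AA_conj k ha t
  have hAe := T.AA_exp hku hkE
  set e := m ^ E with he
  set N := orderOf s with hN
  have hsN : s ^ N = 1 := pow_orderOf_eq_one s
  have hcop : N.Coprime e :=
    Nat.Coprime.coprime_dvd_left (orderOf_dvd_of_pow_eq_one hsE)
      ((T.hcop.symm.pow_left E').pow_right E)
  set u := Nat.gcdA N e with hu
  -- Step a: a conjugate of `k` with non central norm.
  have hexists : ∃ k' ∈ cls k, nu s k' N ∉ Subgroup.center G := by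
    by_contra hno
    push Not at hno
    have h1 : ∀ b ∈ AA k, nu s b N ∈ Subgroup.center G := by
      intro b hb
      refine Subgroup.closure_induction (p := fun b _ => nu s b N ∈ Subgroup.center G)
        ?_ ?_ ?_ ?_ hb
      · exact hno
      · rw [nu_one]; exact Subgroup.one_mem _
      · intro a b ha hb h1 h2
        rw [nu_mul hAc hAn s ha hb]
        exact Subgroup.mul_mem _ h1 h2
      · intro a ha h1
        rw [nu_inv hAc hAn s ha]
        exact Subgroup.inv_mem _ h1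
    have h2 := h1 a₀ ha₀
    rw [nu_comm hc] at h2
    have h3 := pow_zpow_gcdA hcop (hAe _ ha₀)
    exact ha₀z (h3 ▸ Subgroup.zpow_mem _ h2 _)
  obtain ⟨k', hk', hνk'⟩ := hexists
  have hk'A : k' ∈ AA k := Subgroup.subset_closure hk'
  have hclk' : cl k' = n := by rw [← cl_of_isConj hk']; exact hk
  set b₀ := nu s k' N with hb₀
  have hb₀A : b₀ ∈ AA k := nu_mem hAn s hk'A N
  have hb₀s : b₀ * s = s * b₀ := nu_commute hAc hAn hsN hk'A
  set a := b₀ ^ u with ha
  have haA : a ∈ AA k := Subgroup.zpow_mem _ hb₀A _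
  have has : a * s = s * a := by
    have h1 : Commute b₀ s := hb₀s
    exact h1.zpow_left _
  have hae : a ^ N = b₀ := by
    rw [ha, ← zpow_natCast, ← zpow_mul, mul_comm, zpow_mul, zpow_natCast]
    exact pow_zpow_gcdA hcop (hAe _ hb₀A)
  have haz : a ∉ Subgroup.center G := by
    intro h
    exact hνk' (hae ▸ Subgroup.pow_mem _ h N)
  set k₂ := k' * a⁻¹ with hk₂
  have hk₂A : k₂ ∈ AA k := (AA k).mul_mem hk'A ((AA k).inv_mem haA)
  have hνa : nu s a N = b₀ := by rw [nu_comm has, hae]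
  have hνk₂ : nu s k₂ N = 1 := by
    rw [hk₂, nu_mul hAc hAn s hk'A ((AA k).inv_mem haA), nu_inv hAc hAn s haA, hνa, ← hb₀]
    group
  have hk₂1 : k₂ ≠ 1 := by
    intro h
    have h1 : k' = a := by
      rw [hk₂, mul_inv_eq_one] at h
      exact h
    have h2 : s ∈ Cn k' := by
      rw [h1]
      exact mem_Cn.mpr has.symm
    have h3 := T.inf_eq_center hclk' hg
    exact hsz (h3 ▸ ⟨h2, hs⟩)
  -- Step c: the class of `e₀ = a s` is small.
  set e₀ := a * s with he₀
  have hae₀ : a ∈ Cn e₀ := by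
    rw [mem_Cn]
    exact (Commute.refl a).mul_right (has : Commute a s)
  have hnotM : ∀ c ∈ AA k, cl c ≠ m := fun c hc => T.not_M_of_mem_T0 (T.AA_le_T0 hku hc)
  have hcle : cl e₀ ≤ n := by
    refine T.hsecond _ (lt_of_le_of_ne (T.htop _) ?_)
    intro h
    rcases T.central_or_M h hae₀ (hAe _ haA) with h1 | h1
    · exact haz h1
    · exact hnotM _ haA h1
  -- the two counted sets
  let B : Set G := {b | b ∈ AA k ∧ nu s b N = 1}
  let S : Subgroup G := Cn g ⊓ Cn a ⊓ Cn s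
  have hB1 : (1 : G) ∈ B := ⟨(AA k).one_mem, nu_one s N⟩
  have hk₂B : k₂ ∈ B := ⟨hk₂A, hνk₂⟩
  -- the count of `S`
  have d1 : Nat.card S ≤ Nat.card (Subgroup.center G) * Nat.card (↥(B \ {1})) := by
    refine card_le_mul_of_fibers (α := S) (β := ↥(B \ {1})) (δ := G)
      (fun i => ⟨(i : G) * k₂ * (i : G)⁻¹, ?_⟩) (fun i₀ i => (i₀ : G)⁻¹ * i)
      (fun d => d ∈ Subgroup.center G) ?_ ?_
    · refine ⟨⟨hAn _ hk₂A _, ?_⟩, ?_⟩
      · have h1 : ((i : G) * s) = s * i := mem_Cn.mp i.2.2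
        rw [nu_conj h1, hνk₂]; group
      · intro h
        have h2 : (i : G) * k₂ * (i : G)⁻¹ = 1 := h
        apply hk₂1
        have h3 : k₂ = (i : G)⁻¹ * ((i : G) * k₂ * (i : G)⁻¹) * i := by group
        rw [h3, h2]; group
    · intro i₀ i hi
      have h1 : (i : G) * k₂ * (i : G)⁻¹ = (i₀ : G) * k₂ * (i₀ : G)⁻¹ := congrArg Subtype.val hi
      have h2 : (i₀ : G)⁻¹ * i ∈ Cn k₂ := by
        rw [mem_Cn]
        have h3 : (i : G) * k₂ = (i₀ : G) * k₂ * (i₀ : G)⁻¹ * i := by rw [← h1]; group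
        calc (i₀ : G)⁻¹ * i * k₂ = (i₀ : G)⁻¹ * ((i : G) * k₂) := by group
          _ = (i₀ : G)⁻¹ * ((i₀ : G) * k₂ * (i₀ : G)⁻¹ * i) := by rw [h3]
          _ = _ := by group
      have h3 : (i₀ : G)⁻¹ * i ∈ Cn a :=
        (Cn a).mul_mem ((Cn a).inv_mem i₀.2.1.2) i.2.1.2
      have h4 : (i₀ : G)⁻¹ * i ∈ Cn g :=
        (Cn g).mul_mem ((Cn g).inv_mem i₀.2.1.1) i.2.1.1
      have h5 : (i₀ : G)⁻¹ * i ∈ Cn k' := by
        have h6 : k' = k₂ * a := by rw [hk₂]; group
        rw [h6]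
        have h7 := mem_Cn.mp h2
        have h8 := mem_Cn.mp h3
        rw [mem_Cn]
        calc (i₀ : G)⁻¹ * i * (k₂ * a) = ((i₀ : G)⁻¹ * i * k₂) * a := by group
          _ = k₂ * ((i₀ : G)⁻¹ * i) * a := by rw [h7]
          _ = k₂ * ((i₀ : G)⁻¹ * i * a) := by group
          _ = k₂ * (a * ((i₀ : G)⁻¹ * i)) := by rw [h8]
          _ = _ := by group
      have h9 := T.inf_eq_center hclk' hg
      exact h9 ▸ ⟨h5, h4⟩
    · intro i₀ i₁ i₂ _ _ h
      apply Subtype.ext
      exact mul_left_cancel h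
  -- the fibre analysis
  have hfib : ∀ i : G, i ∈ Cn g → ∀ b ∈ B, ∀ b' ∈ B,
      i * (b * e₀ * b⁻¹) * i⁻¹ = b' * e₀ * b'⁻¹ → i ∈ S ∧ (i = 1 → b = b') := by
    intro i hi b hb b' hb' heq
    have hτm : ∀ c ∈ AA k, c * s * c⁻¹ * s⁻¹ ∈ AA k := by
      intro c hc
      have h1 : c * s * c⁻¹ * s⁻¹ = c * (s * c⁻¹ * s⁻¹) := by group
      rw [h1]
      exact (AA k).mul_mem hc (hAn _ ((AA k).inv_mem hc) s)
    have hform : ∀ c ∈ AA k, c * e₀ * c⁻¹ = a * (c * s * c⁻¹ * s⁻¹) * s := by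
      intro c hc
      have h1 := hAc _ hc _ haA
      calc c * e₀ * c⁻¹ = (c * a) * s * c⁻¹ := by rw [he₀]; group
        _ = (a * c) * s * c⁻¹ := by rw [h1]
        _ = _ := by group
    set τ := b * s * b⁻¹ * s⁻¹ with hτ
    set τ' := b' * s * b'⁻¹ * s⁻¹ with hτ'
    have hτA : τ ∈ AA k := hτm b hb.1
    have hτ'A : τ' ∈ AA k := hτm b' hb'.1
    rw [hform b hb.1, hform b' hb'.1, ← hτ, ← hτ'] at heq
    set X := (i * a * i⁻¹) * (i * τ * i⁻¹) with hX
    have hXA : X ∈ AA k := (AA k).mul_mem (hAn _ haA _) (hAn _ hτA _)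
    have heq2 : X * (i * s * i⁻¹) = a * τ' * s := by
      rw [← heq, hX]; group
    set ζ := i * s * i⁻¹ * s⁻¹ with hζ
    have hζ1 : ζ = X⁻¹ * (a * τ') := by
      rw [hζ]
      calc i * s * i⁻¹ * s⁻¹ = X⁻¹ * (X * (i * s * i⁻¹)) * s⁻¹ := by group
        _ = X⁻¹ * (a * τ' * s) * s⁻¹ := by rw [heq2]
        _ = _ := by group
    have hζA : ζ ∈ AA k := by
      rw [hζ1]
      exact (AA k).mul_mem ((AA k).inv_mem hXA) ((AA k).mul_mem haA hτ'A)
    have hζg : ζ ∈ Cn g :=
      (Cn g).mul_mem ((Cn g).mul_mem ((Cn g).mul_mem hi hs) ((Cn g).inv_mem hi)) ((Cn g).inv_mem hs)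
    have hζz : ζ ∈ Subgroup.center G := by
      rcases T.central_or_M hg hζg (hAe _ hζA) with h | h
      · exact h
      · exact absurd h (hnotM _ hζA)
    have hζc : Commute ζ s := (Subgroup.mem_center_iff.mp hζz s).symm
    have hζs : i * s * i⁻¹ = ζ * s := by rw [hζ]; group
    have hζN : ζ ^ N = 1 := by
      have h1 : (i * s * i⁻¹) ^ N = 1 := by
        rw [conj_pow, hsN]; group
      rw [hζs, hζc.mul_pow, hsN, mul_one] at h1
      exact h1
    have hζone : ζ = 1 := eq_one_of_pows hcop hζN (hAe _ hζA)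
    have his : i * s * i⁻¹ = s := by rw [hζs, hζone, one_mul]
    have hicom : i * s = s * i := by
      calc i * s = (i * s * i⁻¹) * i := by group
        _ = s * i := by rw [his]
    rw [his] at heq2
    have heq3 : X = a * τ' := mul_right_cancel heq2
    set p := (i * a * i⁻¹) * a⁻¹ with hp
    have hpA : p ∈ AA k := (AA k).mul_mem (hAn _ haA _) ((AA k).inv_mem haA)
    have hiτA : i * τ * i⁻¹ ∈ AA k := hAn _ hτA _
    have hpform : p = τ' * (i * τ * i⁻¹)⁻¹ := by
      have h1 : i * a * i⁻¹ = a * τ' * (i * τ * i⁻¹)⁻¹ := by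
        rw [← heq3, hX]; group
      have h2 : τ' * (i * τ * i⁻¹)⁻¹ ∈ AA k := (AA k).mul_mem hτ'A ((AA k).inv_mem hiτA)
      rw [hp, h1]
      calc a * τ' * (i * τ * i⁻¹)⁻¹ * a⁻¹ = a * (τ' * (i * τ * i⁻¹)⁻¹) * a⁻¹ := by group
        _ = (τ' * (i * τ * i⁻¹)⁻¹) * a * a⁻¹ := by rw [hAc _ haA _ h2]
        _ = _ := by group
    have hντ : nu s τ N = 1 := nu_tau hAc hAn hsN hb.1
    have hντ' : nu s τ' N = 1 := nu_tau hAc hAn hsN hb'.1
    have hpν : nu s p N = 1 := by
      rw [hpform, nu_mul hAc hAn s hτ'A ((AA k).inv_mem hiτA), nu_inv hAc hAn s hiτA,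
        nu_conj hicom, hντ', hντ]
      group
    have hps : p * s = s * p := by
      have h1 : Commute (i * a * i⁻¹) s := by
        have h2 : Commute i s := hicom
        have h3 : Commute a s := has
        exact (h2.mul_left h3).mul_left h2.inv_left
      have h4 : Commute p s := h1.mul_left (Commute.inv_left has)
      exact h4
    have hpN : p ^ N = 1 := by
      rw [← nu_comm hps]
      exact hpν
    have hpone : p = 1 := eq_one_of_pows hcop hpN (hAe _ hpA)
    have hia : i * a * i⁻¹ = a := by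
      rw [hp, mul_inv_eq_one] at hpone
      exact hpone
    have hiS : i ∈ S := by
      refine ⟨⟨hi, mem_Cn.mpr ?_⟩, mem_Cn.mpr hicom⟩
      calc i * a = (i * a * i⁻¹) * i := by group
        _ = a * i := by rw [hia]
    refine ⟨hiS, ?_⟩
    intro hi1
    have hττ : τ' = τ := by
      rw [hpone, hi1] at hpform
      have h1 : (1 : G) = τ' * τ⁻¹ := by simpa using hpform
      exact (mul_inv_eq_one.mp h1.symm)
    set c := b'⁻¹ * b with hc'
    have hcA : c ∈ AA k := (AA k).mul_mem ((AA k).inv_mem hb'.1) hb.1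
    have hcs : c * s = s * c := by
      have h1 : b' * s * b'⁻¹ = b * s * b⁻¹ := by
        have := hττ
        rw [hτ', hτ] at this
        exact mul_right_cancel this
      rw [hc']
      calc b'⁻¹ * b * s = b'⁻¹ * (b * s * b⁻¹) * b := by group
        _ = b'⁻¹ * (b' * s * b'⁻¹) * b := by rw [h1]
        _ = _ := by group
    have hcN : c ^ N = 1 := by
      rw [← nu_comm hcs, hc', nu_mul hAc hAn s ((AA k).inv_mem hb'.1) hb.1,
        nu_inv hAc hAn s hb'.1, hb'.2, hb.2]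
      group
    have hcone : c = 1 := eq_one_of_pows hcop hcN (hAe _ hcA)
    rw [hc', inv_mul_eq_one] at hcone
    exact hcone.symm
  have d2 : Nat.card (Cn g) * Nat.card ↥B ≤ Nat.card S * cl e₀ := by
    have h := card_le_mul_of_fibers (α := ↥(Cn g) × ↥B) (β := ↥(cls e₀)) (δ := G)
      (fun p => ⟨(p.1 : G) * ((p.2 : G) * e₀ * (p.2 : G)⁻¹) * (p.1 : G)⁻¹,
        ((isConj_conj (p.2 : G) e₀).trans (isConj_conj (p.1 : G) _))⟩)
      (fun p₀ p => (p₀.1 : G)⁻¹ * p.1) (fun d => d ∈ S)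
      (by
        rintro ⟨j₀, b₀'⟩ ⟨j, b⟩ hf
        have h1 : (j : G) * ((b : G) * e₀ * (b : G)⁻¹) * (j : G)⁻¹
            = (j₀ : G) * ((b₀' : G) * e₀ * (b₀' : G)⁻¹) * (j₀ : G)⁻¹ := congrArg Subtype.val hf
        have h2 : ((j₀ : G)⁻¹ * j) * ((b : G) * e₀ * (b : G)⁻¹) * ((j₀ : G)⁻¹ * j)⁻¹
            = (b₀' : G) * e₀ * (b₀' : G)⁻¹ := by
          calc ((j₀ : G)⁻¹ * j) * ((b : G) * e₀ * (b : G)⁻¹) * ((j₀ : G)⁻¹ * j)⁻¹
              = (j₀ : G)⁻¹ * ((j : G) * ((b : G) * e₀ * (b : G)⁻¹) * (j : G)⁻¹) * j₀ := by group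
            _ = _ := by rw [h1]; group
        exact (hfib _ ((Cn g).mul_mem ((Cn g).inv_mem j₀.2) j.2) _ b.2 _ b₀'.2 h2).1)
      (by
        rintro ⟨j₀, b₀'⟩ ⟨j₁, b₁⟩ ⟨j₂, b₂⟩ hf1 hf2 hφ
        have hj : (j₁ : G) = j₂ := mul_left_cancel hφ
        have h1 : (j₁ : G) * ((b₁ : G) * e₀ * (b₁ : G)⁻¹) * (j₁ : G)⁻¹
            = (j₂ : G) * ((b₂ : G) * e₀ * (b₂ : G)⁻¹) * (j₂ : G)⁻¹ :=
          congrArg Subtype.val (hf1.trans hf2.symm)
        rw [hj] at h1
        have h2 : (b₁ : G) * e₀ * (b₁ : G)⁻¹ = (b₂ : G) * e₀ * (b₂ : G)⁻¹ :=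
          mul_left_cancel (mul_right_cancel h1)
        have h3 := (hfib 1 (Cn g).one_mem _ b₁.2 _ b₂.2 (by rw [h2]; group)).2 rfl
        have hj' : j₁ = j₂ := Subtype.ext hj
        have hb' : b₁ = b₂ := Subtype.ext h3
        rw [hj', hb'])
    rw [Nat.card_prod] at h
    have h2 : Nat.card ↥(cls e₀) = cl e₀ := by
      rw [Nat.card_coe_set_eq, ncard_cls]
    rw [h2] at h
    exact h
  -- arithmetic
  have hz : 0 < Nat.card (Subgroup.center G) := Nat.card_pos
  have hcardW := T.card_Cn_M hg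
  have hd : Nat.card ↥B = Nat.card ↥(B \ {1}) + 1 := by
    rw [Nat.card_coe_set_eq, Nat.card_coe_set_eq, Set.ncard_sdiff_singleton_of_mem hB1]
    have : 0 < B.ncard := (Set.ncard_pos (Set.toFinite _)).mpr ⟨1, hB1⟩
    omega
  rw [hcardW, hd] at d2
  set d := Nat.card ↥(B \ {1})
  set z := Nat.card (Subgroup.center G)
  have h1 : Nat.card S * cl e₀ ≤ (z * d) * n := Nat.mul_le_mul d1 hcle
  have h2 : n * z * (d + 1) ≤ (z * d) * n := d2.trans h1
  have h3 : 0 < n * z := Nat.mul_pos T.npos hz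
  have h4 : n * z * (d + 1) = (z * d) * n + n * z := by ring
  omega


/-- Elements of `π(n)`-order of a maximal centralizer that are not central have class size `m`. -/
theorem pi_elt_M {g s : G} {E' : ℕ} (hg : cl g = m) (hs : s ∈ Cn g)
    (hsz : s ∉ Subgroup.center G) (hsE : s ^ (n ^ E') = 1) : cl s = m := by
  classical
  have hxm : (cl x).Coprime m := by rw [T.hx]; exact T.hcop.symm
  obtain ⟨k, b, E, hab, hbz, hkE, hCk, -⟩ := T.exists_pi_part hxm
  have hk : cl k = n := by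
    show (Cn k).index = n
    rw [hCk]; exact T.hx
  have hku : (cl k).Coprime m := by rw [hk]; exact T.hcop.symm
  by_contra hne
  have hle := T.hsecond _ (lt_of_le_of_ne (T.htop s) hne)
  have hn1 : ∀ c ∈ cls k, c ∉ Subgroup.center G := by
    intro c hc hcz
    have h1 := cl_eq_one_iff.mpr hcz
    have h2 := cl_of_isConj hc
    have := T.hn
    omega
  have hinj : Set.InjOn (fun b => b * s * b⁻¹) (insert 1 (cls k)) := by
    intro b₁ hb₁ b₂ hb₂ h
    have h : b₁ * s * b₁⁻¹ = b₂ * s * b₂⁻¹ := h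
    have hA : ∀ c, c ∈ insert 1 (cls k) → c ∈ AA k := by
      rintro c (rfl | hc)
      · exact (AA k).one_mem
      · exact Subgroup.subset_closure hc
    set c := b₂⁻¹ * b₁ with hc
    have hcs : c * s = s * c := by
      rw [hc]
      calc b₂⁻¹ * b₁ * s = b₂⁻¹ * (b₁ * s * b₁⁻¹) * b₁ := by group
        _ = b₂⁻¹ * (b₂ * s * b₂⁻¹) * b₁ := by rw [h]
        _ = _ := by group
    have hcA : c ∈ AA k := (AA k).mul_mem ((AA k).inv_mem (hA _ hb₂)) (hA _ hb₁)
    have hcz := T.core hk hkE hg hs hsz hsE hcA hcs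
    have hb₁2 : b₁ = b₂ * c := by rw [hc]; group
    rcases hb₁ with rfl | hb₁
    · rcases hb₂ with rfl | hb₂
      · rfl
      · exfalso
        apply hn1 _ hb₂
        have : b₂ = c⁻¹ := by rw [hc]; group
        rw [this]
        exact Subgroup.inv_mem _ hcz
    · rcases hb₂ with rfl | hb₂
      · exfalso
        apply hn1 _ hb₁
        rw [hb₁2, one_mul]
        exact hcz
      · -- both are conjugate to `k`
        have hclb₂ : cl b₂ = n := by rw [← cl_of_isConj hb₂]; exact hk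
        have hcc : (Cn g).index.Coprime (Cn b₂).index := by
          show (cl g).Coprime (cl b₂)
          rw [hg, hclb₂]; exact T.hcop
        have hconj : IsConj b₂ b₁ := (IsConj.symm hb₂).trans hb₁
        obtain ⟨t, ht⟩ := isConj_iff.mp hconj
        obtain ⟨j, hj, d, hd, rfl⟩ := exists_mul_of_coprime hcc t
        have hj1 : j * b₂ * j⁻¹ = b₂ * c := by
          rw [← hb₁2, ← ht]
          have hd' : d * b₂ = b₂ * d := mem_Cn.mp hd
          calc j * b₂ * j⁻¹ = j * (b₂ * d) * d⁻¹ * j⁻¹ := by group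
            _ = j * (d * b₂) * d⁻¹ * j⁻¹ := by rw [hd']
            _ = _ := by group
        have hpow : ∀ i : ℕ, j ^ i * b₂ * (j ^ i)⁻¹ = b₂ * c ^ i := by
          intro i
          induction i with
          | zero => simp
          | succ i ih =>
            have hcj : c ^ i * j = j * c ^ i := (Subgroup.mem_center_iff.mp (Subgroup.pow_mem _ hcz i) j).symm
            calc j ^ (i + 1) * b₂ * (j ^ (i + 1))⁻¹ = j * (j ^ i * b₂ * (j ^ i)⁻¹) * j⁻¹ := by
                  rw [pow_succ']; group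
              _ = j * (b₂ * c ^ i) * j⁻¹ := by rw [ih]
              _ = (j * b₂ * j⁻¹) * (j * c ^ i * j⁻¹) := by group
              _ = (j * b₂ * j⁻¹) * (c ^ i * j * j⁻¹) := by rw [hcj]
              _ = (b₂ * c) * c ^ i := by rw [hj1]; group
              _ = _ := by rw [pow_succ']; group
        have hjn : j ^ n ∈ Subgroup.center G := T.pow_n_mem_center hg hj
        have h3 := hpow n
        have h4 : j ^ n * b₂ * (j ^ n)⁻¹ = b₂ := by
          rw [Subgroup.mem_center_iff.mp hjn b₂ |>.symm]; group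
        rw [h4] at h3
        have h5 : c ^ n = 1 := by
          have : b₂ * c ^ n = b₂ * 1 := by rw [← h3, mul_one]
          exact mul_left_cancel this
        have h6 : c ^ (m ^ E) = 1 := T.AA_exp hku hkE _ hcA
        have h7 : c = 1 := eq_one_of_pows (T.hcop.symm.pow_right E) h5 h6
        rw [hb₁2, h7, mul_one]
  have hsub : (fun b => b * s * b⁻¹) '' (insert 1 (cls k)) ⊆ cls s := by
    rintro _ ⟨b, -, rfl⟩
    exact isConj_conj b s
  have hcard : (insert 1 (cls k)).ncard = n + 1 := by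
    rw [Set.ncard_insert_of_notMem, ncard_cls, hk]
    intro h
    exact hn1 _ h (Subgroup.one_mem _)
  have h1 : n + 1 ≤ cl s := by
    rw [← hcard, ← ncard_cls s, ← Set.InjOn.ncard_image hinj]
    exact Set.ncard_le_ncard hsub (Set.toFinite _)
  omega

/-- Elements of prime power order, for a prime dividing `n`, are central or of class size `m`. -/
theorem prime_elt_M {c : G} {r f : ℕ} [Fact r.Prime] (hrn : r ∣ n) (hc : c ^ (r ^ f) = 1)
    (hcz : c ∉ Subgroup.center G) : cl c = m := by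
  have hrp : r.Prime := Fact.out
  have hrm : ¬ r ∣ (Cn y).index := by
    have h0 : (Cn y).index = m := T.hy
    rw [h0]
    intro h
    exact hrp.one_lt.ne' (Nat.eq_one_of_dvd_coprimes T.hcop h hrn)
  obtain ⟨t, ht⟩ := exists_conj_mem_of_coprime_index (Cn y) c r f hc hrm
  have hc1 : IsConj c (t⁻¹ * c * t) := by
    have := isConj_conj t⁻¹ c
    rwa [inv_inv] at this
  have hcz' : t⁻¹ * c * t ∉ Subgroup.center G := by
    intro h
    apply hcz
    have h1 := cl_eq_one_iff.mpr h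
    rw [← cl_of_isConj hc1] at h1
    exact cl_eq_one_iff.mp h1
  have hE : (t⁻¹ * c * t) ^ (n ^ f) = 1 := by
    obtain ⟨q, hq⟩ := pow_dvd_pow_of_dvd hrn f
    rw [hq, pow_mul]
    have : (t⁻¹ * c * t) ^ (r ^ f) = 1 := by
      have h2 := conj_pow (a := t⁻¹) (b := c) (i := r ^ f)
      rw [inv_inv] at h2
      rw [h2, hc]; group
    rw [this, one_pow]
  have h := T.pi_elt_M T.hy ht hcz' hE
  rw [cl_of_isConj hc1]
  exact h

end Top

end Cfsg.Agent.Lib.TopClass
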