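import Mathlib
import Cfsg.Agent.Lib.TopClass.Core

/-!
# Groups whose two largest class sizes are coprime: the centralizers
-/

set_option autoImplicit false

namespace Cfsg.Agent.Lib.TopClass

variable {G : Type*} [Group G] [Finite G]

theorem mem_of_pows {H : Subgroup G} {c : G} {a b : ℕ} (hab : a.Coprime b) (h1 : c ^ a ∈ H)
    (h2 : c ^ b ∈ H) : c ∈ H := by
  have h := Nat.gcd_eq_gcd_ab a b
  rw [hab] at h
  have h3 : c ^ ((a : ℤ) * Nat.gcdA a b + (b : ℤ) * Nat.gcdB a b) = c := by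
    rw [← h]; simp
  rw [zpow_add, zpow_mul c (a : ℤ), zpow_mul c (b : ℤ), zpow_natCast, zpow_natCast] at h3
  rw [← h3]
  exact H.mul_mem (H.zpow_mem h1 _) (H.zpow_mem h2 _)

namespace Top

variable {m n : ℕ} {x y : G} (T : Top m n x y)
include T

/-- A non central element of the centralizer of an element of class size `n` has class size `n`. -/
theorem cl_eq_n_of_mem {x' h : G} (hx' : cl x' = n) (hh : h ∈ Cn x')
    (hhz : h ∉ Subgroup.center G) : cl h = n := by
  obtain ⟨a, b, E, hab, ha, hb, haE, hbo⟩ := exists_parts h m T.mpos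
  have hbx : b ∈ Cn x' := by
    obtain ⟨i, rfl⟩ := Subgroup.mem_zpowers_iff.mp hb
    exact (Cn x').zpow_mem hh i
  have hax : a ∈ Cn x' := by
    obtain ⟨i, rfl⟩ := Subgroup.mem_zpowers_iff.mp ha
    exact (Cn x').zpow_mem hh i
  have hbz := T.central_of_mem_Cn hx' hbx hbo
  have hCa : Cn a = Cn h := by
    refine le_antisymm ?_ (Cn_le_of_mem_zpowers ha)
    intro c hc
    rw [mem_Cn] at hc ⊢
    have h2 : c * b = b * c := (Subgroup.mem_center_iff.mp hbz c)
    rw [← hab]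
    calc c * (a * b) = c * a * b := by group
      _ = a * c * b := by rw [hc]
      _ = a * (c * b) := by group
      _ = a * (b * c) := by rw [h2]
      _ = _ := by group
  have haz : a ∉ Subgroup.center G := by
    intro h1
    apply hhz
    rw [← hab]
    exact Subgroup.mul_mem _ h1 hbz
  have hclh : cl h = cl a := by
    show (Cn h).index = (Cn a).index
    rw [hCa]
  rw [hclh]
  have haM : cl a ≠ m := fun h1 => T.not_M_of_mem hx' h1 hax
  have hle : cl a ≤ n := T.hsecond _ (lt_of_le_of_ne (T.htop _) haM)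
  have h1 : (Subgroup.center G).relIndex (Cn a) * cl a = m * n := by
    rw [← T.index_center]
    exact Subgroup.relIndex_mul_index (center_le_Cn a)
  have hcop : ((Subgroup.center G).relIndex (Cn a)).Coprime n := by
    refine Nat.coprime_of_dvd ?_
    intro r hr hr1 hr2
    haveI : Fact r.Prime := ⟨hr⟩
    obtain ⟨c, hc, hcz, f, hcf⟩ := exists_p_elt (Cn a) (Subgroup.center G) r hr1
    have hcM := T.prime_elt_M hr2 hcf hcz
    have hac : a ∈ Cn c := mem_Cn.mpr (mem_Cn.mp hc).symm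
    rcases T.central_or_M hcM hac haE with h2 | h2
    · exact haz h2
    · exact haM h2
  have h2 : n ∣ (Subgroup.center G).relIndex (Cn a) * cl a := by rw [h1]; exact Dvd.intro_left _ rfl
  have h3 : n ∣ cl a := hcop.symm.dvd_of_dvd_mul_left h2
  have h4 : 0 < cl a := Nat.pos_of_ne_zero Subgroup.index_ne_zero_of_finite
  exact le_antisymm hle (Nat.le_of_dvd h4 h3)

theorem Cn_conj_eq {x₀ : G} (hx₀ : cl x₀ = n) (t : G) : Cn (t * x₀ * t⁻¹) = Cn x₀ := by
  have hu : (cl x₀).Coprime m := by rw [hx₀]; exact T.hcop.symm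
  have h1 : Cn x₀ ≤ Cn (t * x₀ * t⁻¹) := by
    intro h hh
    by_cases hhz : h ∈ Subgroup.center G
    · exact center_le_Cn _ hhz
    · have hclh := T.cl_eq_n_of_mem hx₀ hh hhz
      have huh : (cl h).Coprime m := by rw [hclh]; exact T.hcop.symm
      have hκ := T.inv_mul_mem_K hu (isConj_conj t x₀)
      have h2 := T.K_le_Cn huh hκ
      have h3 : Commute x₀ h := (mem_Cn.mp hh).symm
      have h4 : Commute (x₀⁻¹ * (t * x₀ * t⁻¹)) h := mem_Cn.mp h2
      have h5 : Commute (x₀ * (x₀⁻¹ * (t * x₀ * t⁻¹))) h := h3.mul_left h4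
      rw [mul_inv_cancel_left] at h5
      exact mem_Cn.mpr h5.symm
  refine (eq_of_le_of_index_le h1 ?_).symm
  show cl x₀ ≤ cl (t * x₀ * t⁻¹)
  rw [cl_conj]

theorem Cn_normal {x₀ : G} (hx₀ : cl x₀ = n) : (Cn x₀).Normal := by
  refine ⟨?_⟩
  intro h hh t
  have h1 := mem_Cn_conj (t := t) hh
  rwa [T.Cn_conj_eq hx₀] at h1

theorem le_Cn_of_mem_N {x₀ h : G} (hx₀ : cl x₀ = n) (hh : h ∈ Cn x₀) : Cn x₀ ≤ Cn h := by
  by_cases hhz : h ∈ Subgroup.center G
  · rw [Cn_eq_top hhz]; exact le_top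
  have hclh := T.cl_eq_n_of_mem hx₀ hh hhz
  haveI := T.Cn_normal hx₀
  have h1 : Cn h ≤ Cn x₀ := by
    intro c hc
    have h2 : c ^ m ∈ Cn x₀ := center_le_Cn x₀ (T.pow_m_mem_center hclh hc)
    have h3 : c ^ (Cn x₀).index ∈ Cn x₀ := Subgroup.pow_index_mem _ c
    have h4 : (Cn x₀).index = n := hx₀
    rw [h4] at h3
    exact mem_of_pows T.hcop h2 h3
  refine (eq_of_le_of_index_le h1 ?_).symm ▸ le_refl _
  show cl h ≤ cl x₀
  rw [hclh, hx₀]

/-- `t ∈ C(x₀)` commuting modulo the centre with a non central `w` of a maximal centralizer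
is central. -/
theorem fpf {x₀ g w t : G} (hx₀ : cl x₀ = n) (hg : cl g = m) (hw : w ∈ Cn g)
    (hwz : w ∉ Subgroup.center G) (ht : t ∈ Cn x₀) (hc : w * t * w⁻¹ * t⁻¹ ∈ Subgroup.center G) :
    t ∈ Subgroup.center G := by
  obtain ⟨w₁, w₂, E', hw12, hw₁, hw₂, hw₁E, hw₂o⟩ := exists_parts w n T.npos
  have hw₂g : w₂ ∈ Cn g := by
    obtain ⟨i, rfl⟩ := Subgroup.mem_zpowers_iff.mp hw₂
    exact (Cn g).zpow_mem hw i
  have hw₁g : w₁ ∈ Cn g := by
    obtain ⟨i, rfl⟩ := Subgroup.mem_zpowers_iff.mp hw₁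
    exact (Cn g).zpow_mem hw i
  have hw₂z : w₂ ∈ Subgroup.center G :=
    ClassSizes.mem_of_pow_mem_of_coprime _ w₂ n hw₂o.symm (T.pow_n_mem_center hg hw₂g)
  have hw₁z : w₁ ∉ Subgroup.center G := by
    intro h
    apply hwz
    rw [← hw12]
    exact Subgroup.mul_mem _ h hw₂z
  have hw₁M : cl w₁ = m := T.pi_elt_M hg hw₁g hw₁z hw₁E
  -- the element `w₁` commutes with `t` modulo the centre
  let D : Subgroup G := (Subgroup.centralizer ({(QuotientGroup.mk' (Subgroup.center G)) t} :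
    Set (G ⧸ Subgroup.center G))).comap (QuotientGroup.mk' (Subgroup.center G))
  have hD : ∀ d : G, d ∈ D ↔ d * t * d⁻¹ * t⁻¹ ∈ Subgroup.center G := by
    intro d
    rw [Subgroup.mem_comap, Subgroup.mem_centralizer_singleton_iff,
      ← QuotientGroup.eq_one_iff (N := Subgroup.center G)]
    constructor
    · intro h
      have h1 : ((d * t * d⁻¹ * t⁻¹ : G) : G ⧸ Subgroup.center G)
          = (QuotientGroup.mk' (Subgroup.center G) d * QuotientGroup.mk' (Subgroup.center G) t)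
            * (QuotientGroup.mk' (Subgroup.center G) d)⁻¹ * (QuotientGroup.mk' (Subgroup.center G) t)⁻¹ := rfl
      rw [h1, h]
      group
    · intro h
      have h1 : ((d * t * d⁻¹ * t⁻¹ : G) : G ⧸ Subgroup.center G)
          = (QuotientGroup.mk' (Subgroup.center G) d * QuotientGroup.mk' (Subgroup.center G) t)
            * (QuotientGroup.mk' (Subgroup.center G) t * QuotientGroup.mk' (Subgroup.center G) d)⁻¹ := by
        show _ = _
        rw [mul_inv_rev]
        rw [mul_assoc]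
        rfl
      rw [h1, mul_inv_eq_one] at h
      exact h
  have hwD : w ∈ D := (hD w).mpr hc
  have hw₁D : w₁ ∈ D := by
    obtain ⟨i, rfl⟩ := Subgroup.mem_zpowers_iff.mp hw₁
    exact D.zpow_mem hwD i
  have hζz := (hD w₁).mp hw₁D
  set ζ := w₁ * t * w₁⁻¹ * t⁻¹ with hζ
  have hconj : w₁ * t * w₁⁻¹ = ζ * t := by rw [hζ]; group
  have hζt : Commute ζ t := (Subgroup.mem_center_iff.mp hζz t).symm
  have hζw : Commute ζ w₁ := (Subgroup.mem_center_iff.mp hζz w₁).symm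
  set N := orderOf w₁ with hN
  have hpowi : ∀ i : ℕ, w₁ ^ i * t * (w₁ ^ i)⁻¹ = ζ ^ i * t := by
    intro i
    induction i with
    | zero => simp
    | succ i ih =>
      have h1 : Commute (ζ ^ i) w₁ := hζw.pow_left i
      calc w₁ ^ (i + 1) * t * (w₁ ^ (i + 1))⁻¹ = w₁ * (w₁ ^ i * t * (w₁ ^ i)⁻¹) * w₁⁻¹ := by
            rw [pow_succ']; group
        _ = w₁ * (ζ ^ i * t) * w₁⁻¹ := by rw [ih]
        _ = (w₁ * ζ ^ i) * t * w₁⁻¹ := by group
        _ = (ζ ^ i * w₁) * t * w₁⁻¹ := by rw [h1.eq]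
        _ = ζ ^ i * (w₁ * t * w₁⁻¹) := by group
        _ = ζ ^ i * (ζ * t) := by rw [hconj]
        _ = _ := by rw [pow_succ]; group
  have hζN : ζ ^ N = 1 := by
    have h1 := hpowi N
    rw [hN, pow_orderOf_eq_one] at h1
    simp only [one_mul, inv_one, mul_one] at h1
    exact (mul_eq_right.mp h1.symm)
  have hζm : ζ ^ m = 1 := by
    have h1 : t ^ m ∈ Subgroup.center G := T.pow_m_mem_center hx₀ ht
    have h2 : w₁ * t ^ m * w₁⁻¹ = t ^ m := by
      rw [Subgroup.mem_center_iff.mp h1 w₁]; group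
    have h3 : w₁ * t ^ m * w₁⁻¹ = (ζ * t) ^ m := by
      rw [← conj_pow, hconj]
    rw [h2, hζt.mul_pow] at h3
    exact (mul_eq_right.mp h3.symm)
  have hNc : N.Coprime m :=
    Nat.Coprime.coprime_dvd_left (orderOf_dvd_of_pow_eq_one hw₁E) (T.hcop.symm.pow_left E')
  have hζ1 : ζ = 1 := by
    have h3 : orderOf ζ ∣ N := orderOf_dvd_of_pow_eq_one hζN
    have h4 : orderOf ζ ∣ m := orderOf_dvd_of_pow_eq_one hζm
    exact orderOf_eq_one_iff.mp (Nat.eq_one_of_dvd_coprimes hNc h3 h4)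
  have htw : t ∈ Cn w₁ := by
    rw [mem_Cn]
    rw [hζ1, one_mul] at hconj
    calc t * w₁ = (w₁ * t * w₁⁻¹) * w₁ := by rw [hconj]
      _ = w₁ * t := by group
  have h5 := T.inf_eq_center hx₀ hw₁M
  exact h5 ▸ ⟨ht, htw⟩

/-- Maximal centralizers are abelian. -/
theorem le_Cn_of_mem_M {g v : G} (hg : cl g = m) (hv : v ∈ Cn g) : Cn g ≤ Cn v := by
  by_cases hvz : v ∈ Subgroup.center G
  · rw [Cn_eq_top hvz]; exact le_top
  obtain ⟨v₁, v₂, E', hv12, hv₁, hv₂, hv₁E, hv₂o⟩ := exists_parts v n T.npos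
  have hv₂g : v₂ ∈ Cn g := by
    obtain ⟨i, rfl⟩ := Subgroup.mem_zpowers_iff.mp hv₂
    exact (Cn g).zpow_mem hv i
  have hv₁g : v₁ ∈ Cn g := by
    obtain ⟨i, rfl⟩ := Subgroup.mem_zpowers_iff.mp hv₁
    exact (Cn g).zpow_mem hv i
  have hv₂z : v₂ ∈ Subgroup.center G :=
    ClassSizes.mem_of_pow_mem_of_coprime _ v₂ n hv₂o.symm (T.pow_n_mem_center hg hv₂g)
  have hv₁z : v₁ ∉ Subgroup.center G := by
    intro h
    apply hvz
    rw [← hv12]
    exact Subgroup.mul_mem _ h hv₂z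
  have hv₁M : cl v₁ = m := T.pi_elt_M hg hv₁g hv₁z hv₁E
  have hCv : Cn v₁ ≤ Cn v := by
    intro c hc
    rw [mem_Cn] at hc ⊢
    have h2 : c * v₂ = v₂ * c := (Subgroup.mem_center_iff.mp hv₂z c)
    rw [← hv12]
    calc c * (v₁ * v₂) = c * v₁ * v₂ := by group
      _ = v₁ * c * v₂ := by rw [hc]
      _ = v₁ * (c * v₂) := by group
      _ = v₁ * (v₂ * c) := by rw [h2]
      _ = _ := by group
  haveI := T.Cn_normal T.hx
  have hcc : (Cn x).index.Coprime (Cn g).index := by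
    show (cl x).Coprime (cl g)
    rw [T.hx, hg]; exact T.hcop.symm
  have h1 : Cn v₁ ≤ Cn g := by
    intro c hc
    obtain ⟨t, ht, j, hj, rfl⟩ := exists_mul_of_coprime hcc c
    have hc' : (t * j) * v₁ * (t * j)⁻¹ = v₁ := by
      have := mem_Cn.mp hc
      rw [this]; group
    set w := j * v₁ * j⁻¹ with hw
    have hwg : w ∈ Cn g := (Cn g).mul_mem ((Cn g).mul_mem hj hv₁g) ((Cn g).inv_mem hj)
    have htw : t * w * t⁻¹ = v₁ := by
      rw [← hc', hw]; group
    have hζg : t * w * t⁻¹ * w⁻¹ ∈ Cn g := by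
      rw [htw]
      exact (Cn g).mul_mem hv₁g ((Cn g).inv_mem hwg)
    have hζx : t * w * t⁻¹ * w⁻¹ ∈ Cn x := by
      have h2 : t * w * t⁻¹ * w⁻¹ = t * (w * t⁻¹ * w⁻¹) := by group
      rw [h2]
      exact (Cn x).mul_mem ht ((inferInstance : (Cn x).Normal).conj_mem _ ((Cn x).inv_mem ht) w)
    have hζz : t * w * t⁻¹ * w⁻¹ ∈ Subgroup.center G :=
      T.inf_eq_center T.hx hg ▸ ⟨hζx, hζg⟩
    have hwz : w ∉ Subgroup.center G := by
      intro h
      apply hv₁z
      have h2 := cl_eq_one_iff.mpr h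
      rw [hw, cl_conj] at h2
      exact cl_eq_one_iff.mp h2
    have h3 : w * t * w⁻¹ * t⁻¹ ∈ Subgroup.center G := by
      have h4 := Subgroup.inv_mem _ hζz
      have h5 : (t * w * t⁻¹ * w⁻¹)⁻¹ = w * t * w⁻¹ * t⁻¹ := by group
      rwa [h5] at h4
    have htz := T.fpf T.hx hg hwg hwz ht h3
    exact (Cn g).mul_mem (center_le_Cn g htz) hj
  have h2 : Cn v₁ = Cn g := by
    refine eq_of_le_of_index_le h1 ?_
    show cl v₁ ≤ cl g
    rw [hv₁M, hg]
  rw [← h2]
  exact hCv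

end Top

end Cfsg.Agent.Lib.TopClass
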